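import Mathlib
import Cfsg.Agent.PLocal.HHBCore
import Cfsg.Agent.H552.Series

/-!
helper557: part C of the proof of S4258 (helper552), first half.

`G` acts on `V` (characteristic `2`), `y` with `(ρ y - 1) ^ (2 ^ e - 1) = 0`, `z = y ^ 2 ^ (e - 1)`.

* `E1`, `E1Z` : `z` centralizes every abelian `y`-invariant `q`-group (`q` odd) acting faithfully;
* `W` : weights of an abelian group of odd order.
-/

set_option autoImplicit false
set_option linter.unusedSectionVars false

namespace Cfsg.Agent.H557.PartC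

open Module

section

variable {K : Type*} [Field K] {V : Type*} [AddCommGroup V] [Module K V]

theorem pow_eq_one [CharP K 2] {X : Module.End K V} {e : ℕ} (hX : (X - 1) ^ (2 ^ e - 1) = 0) : X ^ 2 ^ e = 1 := by
  rcases subsingleton_or_nontrivial V with hV | hV
  · exact Subsingleton.elim _ _
  have : CharP (Module.End K V) 2 := charP_of_injective_algebraMap (algebraMap K (Module.End K V)).injective 2
  have h1 : (X - 1) ^ 2 ^ e = 0 := by
    have h2 : 2 ^ e = (2 ^ e - 1) + 1 := (Nat.sub_add_cancel Nat.one_le_two_pow).symm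
    rw [h2, pow_succ, hX, zero_mul]
  rw [sub_pow_char_pow_of_commute _ _ (Commute.one_right _), one_pow] at h1
  exact sub_eq_zero.1 h1

variable [IsAlgClosed K] [CharP K 2] [FiniteDimensional K V] {G : Type*} [Group G] [Finite G]
  (ρ : G →* Module.End K V) {y : G} {e q : ℕ} [Fact q.Prime]

theorem E1 (hq : q ≠ 2) (he : 1 ≤ e) (hy : (ρ y - 1) ^ (2 ^ e - 1) = 0) {A : Subgroup G} (hA : IsPGroup q A)
    (hyA : y ∈ Subgroup.normalizer (A : Set G)) (hcomm : ∀ a ∈ A, ∀ b ∈ A, a * b = b * a)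
    (hinj : ∀ a ∈ A, ρ a = 1 → a = 1) : ∀ a ∈ A, y ^ 2 ^ (e - 1) * a = a * y ^ 2 ^ (e - 1) := by
  have : Fact (Nat.Prime 2) := ⟨Nat.prime_two⟩
  let ξ : Subgroup.normalizer (A : Set G) := ⟨y, hyA⟩
  let σ : MulAut A := A.normalizerMonoidHom ξ
  have hσ : ∀ (k : ℕ) (h : A), (((σ ^ k) h : A) : G) = y ^ k * h * (y ^ k)⁻¹ := by
    intro k h
    have h1 : σ ^ k = A.normalizerMonoidHom (ξ ^ k) := (map_pow _ _ _).symm
    rw [h1]
    rfl
  have hρA : Function.Injective (ρ.comp A.subtype) := by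
    rw [injective_iff_map_eq_one]
    rintro ⟨a, ha⟩ h
    exact Subtype.ext (hinj a ha h)
  have hX := pow_eq_one hy
  by_contra hcon
  push Not at hcon
  obtain ⟨a, ha, hne⟩ := hcon
  rcases Cfsg.Agent.PLocal.HHBCore.core (p := 2) hq hA (ρ.comp A.subtype) hρA σ (ρ y) (by
      intro h
      have h1 := hσ 1 h
      rw [pow_one, pow_one] at h1
      show ρ y * ρ (h : G) = ρ ((σ h : A) : G) * ρ y
      rw [h1, ← map_mul, ← map_mul]
      congr 1
      group) e he hX (by
      ext h
      apply congrArg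
      apply hρA
      show ρ (((σ ^ 2 ^ e) h : A) : G) = ρ (h : G)
      have h2 : ρ (y ^ 2 ^ e) * ρ (y ^ 2 ^ e)⁻¹ = 1 := by rw [← map_mul, mul_inv_cancel, map_one]
      rw [hσ, map_mul, map_mul, map_pow, hX, one_mul]
      rw [map_pow, hX, one_mul] at h2
      rw [h2, mul_one])
      ⟨⟨a, ha⟩, fun h => hne (by
        have h1 := congrArg Subtype.val h
        rw [hσ] at h1
        exact mul_inv_eq_iff_eq_mul.1 h1)⟩ (2 ^ e - 1) hy with h | ⟨n₀, m, -, -, -, -, ⟨b, c, hbc⟩, -⟩
  · have := Nat.one_le_two_pow (n := e)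
    omega
  · exact hbc (Subtype.ext (hcomm b b.2 c c.2))

end

section

open scoped TensorProduct

universe u v

variable {M : Type v} [AddCommGroup M] [Module (ZMod 2) M] [Finite M] {G : Type u} [Group G] [Finite G]
  (ρ : G →* Module.End (ZMod 2) M) {y : G} {e q : ℕ} [Fact q.Prime]

/-- base change to the algebraic closure -/
noncomputable def bc : G →* Module.End (AlgebraicClosure (ZMod 2)) (AlgebraicClosure (ZMod 2) ⊗[ZMod 2] M) :=
  ((Module.End.baseChangeHom (ZMod 2) (AlgebraicClosure (ZMod 2)) M : Module.End (ZMod 2) M →ₐ[ZMod 2] _) :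
    Module.End (ZMod 2) M →* Module.End (AlgebraicClosure (ZMod 2)) (AlgebraicClosure (ZMod 2) ⊗[ZMod 2] M)).comp ρ

theorem bc_inj {g : G} (h : bc ρ g = 1) : ρ g = 1 := by
  have h1 : Function.Injective (Module.End.baseChangeHom (ZMod 2) (AlgebraicClosure (ZMod 2)) M) :=
    LinearMap.baseChangeHom_injective _ _ _
  apply h1
  rw [map_one]
  exact h

theorem bc_pow {g : G} {n : ℕ} (h : (ρ g - 1) ^ n = 0) : (bc ρ g - 1) ^ n = 0 := by
  have h1 := congrArg (Module.End.baseChangeHom (ZMod 2) (AlgebraicClosure (ZMod 2)) M) h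
  rw [map_pow, map_sub, map_one, map_zero] at h1
  exact h1

instance pcFiniteDimensional : FiniteDimensional (AlgebraicClosure (ZMod 2)) (AlgebraicClosure (ZMod 2) ⊗[ZMod 2] M) := inferInstance

instance pcCharP : CharP (AlgebraicClosure (ZMod 2)) 2 :=
  charP_of_injective_algebraMap (algebraMap (ZMod 2) (AlgebraicClosure (ZMod 2))).injective 2

theorem E1Z (hq : q ≠ 2) (he : 1 ≤ e) (hy : (ρ y - 1) ^ (2 ^ e - 1) = 0) {A : Subgroup G} (hA : IsPGroup q A)
    (hyA : y ∈ Subgroup.normalizer (A : Set G)) (hcomm : ∀ a ∈ A, ∀ b ∈ A, a * b = b * a)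
    (hinj : ∀ a ∈ A, ρ a = 1 → a = 1) : ∀ a ∈ A, y ^ 2 ^ (e - 1) * a = a * y ^ 2 ^ (e - 1) :=
  E1 (bc ρ) hq he (bc_pow ρ hy) hA hyA hcomm fun a ha h => hinj a ha (bc_inj ρ h)

end

/-! ### weights -/

section Weights

variable {K : Type*} [Field K] {V : Type*} [AddCommGroup V] [Module K V] {Z : Type*} [Group Z]

theorem exists_hom (ρ : Z →* Module.End K V) {v : V} (hv : v ≠ 0) (h : ∀ c, ∃ a : K, ρ c v = a • v) :
    ∃ μ : Z →* Kˣ, ∀ c, ρ c v = (μ c : K) • v := by
  choose f hf using h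
  have h1 : ∀ (c : Z) (a : K), ρ c v = a • v → f c = a := fun c a h =>
    smul_left_injective K hv ((hf c).symm.trans h)
  exact ⟨MonoidHom.toHomUnits ⟨⟨f, h1 1 1 (by simp)⟩, fun a b => h1 _ _ (by
    rw [map_mul, Module.End.mul_apply, hf b, map_smul, hf a, smul_smul, mul_comm])⟩, fun c => hf c⟩

/-- an abelian group has a common eigenvector in every nonzero invariant submodule -/
theorem exists_common [IsAlgClosed K] [FiniteDimensional K V] (ρ : Z →* Module.End K V)
    (hZ : ∀ a b : Z, a * b = b * a) (n : ℕ) : ∀ W : Submodule K V, finrank K W = n → W ≠ ⊥ →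
      (∀ c, ∀ w ∈ W, ρ c w ∈ W) → ∃ v ∈ W, v ≠ 0 ∧ ∀ c, ∃ a : K, ρ c v = a • v := by
  induction n using Nat.strong_induction_on with
  | _ n ih =>
    intro W hn hW hinv
    by_cases hs : ∀ c, ∃ a : K, ∀ w ∈ W, ρ c w = a • w
    · obtain ⟨v, hv, hv0⟩ := Submodule.exists_mem_ne_zero_of_ne_bot hW
      exact ⟨v, hv, hv0, fun c => by obtain ⟨a, ha⟩ := hs c; exact ⟨a, ha v hv⟩⟩
    · push Not at hs
      obtain ⟨c, hc⟩ := hs
      have : Nontrivial W := Submodule.nontrivial_iff_ne_bot.2 hW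
      obtain ⟨a, ha⟩ := Module.End.exists_eigenvalue ((ρ c).restrict (hinv c))
      obtain ⟨x, hx⟩ := ha.exists_hasEigenvector
      have hx1 : ρ c x = a • (x : V) := congrArg Subtype.val hx.apply_eq_smul
      let W' : Submodule K V := W ⊓ Module.End.eigenspace (ρ c) a
      have hlt : W' < W := by
        refine lt_of_le_of_ne inf_le_left fun h => ?_
        obtain ⟨w, hw, hne⟩ := hc a
        apply hne
        have : w ∈ W' := by rw [h]; exact hw
        exact Module.End.mem_eigenspace_iff.1 this.2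
      have hne : W' ≠ ⊥ := by
        intro h
        apply hx.2
        apply Subtype.ext
        have : (x : V) ∈ W' := ⟨x.2, Module.End.mem_eigenspace_iff.2 hx1⟩
        rw [h] at this
        exact this
      obtain ⟨v, hv, hv0, h⟩ := ih _ (hn ▸ Submodule.finrank_lt_finrank_of_lt hlt) W' rfl hne (by
        rintro b w ⟨hw, hw'⟩
        refine ⟨hinv b w hw, ?_⟩
        have h0 : ρ c w = a • w := Module.End.mem_eigenspace_iff.1 hw'
        have h1 : ρ c (ρ b w) = ρ b (ρ c w) := by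
          rw [← Module.End.mul_apply, ← Module.End.mul_apply, ← map_mul, ← map_mul, hZ]
        refine Module.End.mem_eigenspace_iff.2 ?_
        rw [h1, h0, map_smul])
      exact ⟨v, hv.1, hv0, h⟩

variable [IsAlgClosed K] [CharP K 2] [FiniteDimensional K V] {G : Type*} [Group G] [Finite G]
  (ρ : G →* Module.End K V) {q : ℕ} [Fact q.Prime]

/-- an operator of odd order different from `1` has an eigenvalue different from `1` -/
theorem exists_eigenvalue_ne {X : Module.End K V} {m : ℕ} (hm : Odd m) (hX : X ^ m = 1) (h1 : X ≠ 1) :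
    ∃ a : K, a ≠ 1 ∧ Module.End.HasEigenvalue X a := by
  have hV : Nontrivial V := by
    by_contra h
    rw [not_nontrivial_iff_subsingleton] at h
    exact h1 (Subsingleton.elim _ _)
  by_contra hcon
  push Not at hcon
  have : CharP (Module.End K V) 2 := charP_of_injective_algebraMap (algebraMap K (Module.End K V)).injective 2
  have h2 : IsNilpotent (X - 1) := by
    have h3 : ∀ a : K, Module.End.HasEigenvalue X a → a = 1 := fun a ha => by
      by_contra hne
      exact hcon a hne ha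
    have h4 := IsAlgClosed.splits (minpoly K X)
    have h5 : ∀ a ∈ (minpoly K X).roots, a = 1 := fun a ha =>
      h3 a (Module.End.hasEigenvalue_of_isRoot (Polynomial.isRoot_of_mem_roots ha))
    have h6 : (minpoly K X).roots = Multiset.replicate (Multiset.card (minpoly K X).roots) 1 :=
      Multiset.eq_replicate_card.2 h5
    have h7 := h4.eq_prod_roots_of_monic (minpoly.monic (Algebra.IsIntegral.isIntegral X))
    rw [h6, Multiset.map_replicate, Multiset.prod_replicate] at h7
    refine ⟨Multiset.card (minpoly K X).roots, ?_⟩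
    have h8 := minpoly.aeval K X
    rw [h7] at h8
    simpa using h8
  obtain ⟨N, hN⟩ := h2
  have h3 : (X - 1) ^ 2 ^ N = 0 := by
    have h4 : 2 ^ N = N + (2 ^ N - N) := by
      have := Nat.lt_two_pow_self (n := N)
      omega
    rw [h4, pow_add, hN, zero_mul]
  rw [sub_pow_char_pow_of_commute _ _ (Commute.one_right _), one_pow] at h3
  have h4 : X ^ 2 ^ N = 1 := sub_eq_zero.1 h3
  apply h1
  have h5 : orderOf X ∣ Nat.gcd (2 ^ N) m := Nat.dvd_gcd (orderOf_dvd_of_pow_eq_one h4) (orderOf_dvd_of_pow_eq_one hX)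
  rw [Nat.Coprime.gcd_eq_one (Nat.Coprime.pow_left N hm.coprime_two_left), Nat.dvd_one] at h5
  exact orderOf_eq_one_iff.1 h5

/-- **weights** -/
theorem W (hq : q ≠ 2) {Z : Subgroup G} (hZ : IsPGroup q Z) (hcomm : ∀ a ∈ Z, ∀ b ∈ Z, a * b = b * a)
    (hinj : ∀ a ∈ Z, ρ a = 1 → a = 1) (c : Z) (hc : c ≠ 1) :
    ∃ μ : Z →* Kˣ, (∃ v : V, v ≠ 0 ∧ ∀ c' : Z, ρ c' v = (μ c' : K) • v) ∧ μ c ≠ 1 := by
  obtain ⟨k, hk⟩ := IsPGroup.iff_card.1 hZ
  have hodd : Odd (Nat.card Z) := by
    rw [hk]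
    exact ((Fact.out : q.Prime).odd_of_ne_two hq).pow
  have hX : (ρ (c : G)) ^ Nat.card Z = 1 := by
    rw [← map_pow, ← Subgroup.coe_pow, pow_card_eq_one', Subgroup.coe_one, map_one]
  have hX1 : ρ (c : G) ≠ 1 := fun h => hc (Subtype.ext (hinj c c.2 h))
  obtain ⟨a, ha, hev⟩ := exists_eigenvalue_ne hodd hX hX1
  obtain ⟨v, hv, hv0, h⟩ := exists_common (ρ.comp Z.subtype) (fun a b => Subtype.ext (hcomm a a.2 b b.2)) _
    (Module.End.eigenspace (ρ (c : G)) a) rfl hev (by
      intro b w hw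
      rw [Module.End.mem_eigenspace_iff] at hw ⊢
      show ρ (c : G) (ρ (b : G) w) = a • ρ (b : G) w
      rw [← Module.End.mul_apply, ← map_mul, hcomm c c.2 b b.2, map_mul, Module.End.mul_apply, hw, map_smul])
  obtain ⟨μ, hμ⟩ := exists_hom (ρ.comp Z.subtype) hv0 h
  refine ⟨μ, ⟨v, hv0, hμ⟩, fun h1 => ha ?_⟩
  have h2 := hμ c
  rw [h1, Units.val_one, one_smul] at h2
  have h3 : ρ (c : G) v = a • v := Module.End.mem_eigenspace_iff.1 hv
  have h4 : (1 : K) • v = a • v := by rw [one_smul, ← h3]; exact h2.symm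
  exact (smul_left_injective K hv0 h4).symm

end Weights

end Cfsg.Agent.H557.PartC
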