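import Mathlib
import Cfsg.Agent.PLocal.HHBFinrankSq
import Cfsg.Agent.PLocal.HHBClifford
import Cfsg.Agent.PLocal.HHBLinear
import Cfsg.Agent.PLocal.HHBJordan

/-!
helper557: part C of the proof of S4258 (helper552): the radical of the commutator form.

* `step` : restriction to a subspace with independent translates;
* `pow_eq` : `q ^ k + 1 = 2 ^ a` implies `k ≤ 1`;
* `core_dim` : **the radical of the form has index `1` or `q ^ 2`**.
-/

set_option autoImplicit false
set_option linter.unusedSectionVars false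

namespace Cfsg.Agent.H557.CoreDim

open Module Cfsg.Agent.PLocal.HHBLinear Cfsg.Agent.PLocal.HHBJordan

/-! ### arithmetic -/

theorem pow_eq {q k a : ℕ} (hq : q.Prime) (hq2 : q ≠ 2) (h : q ^ k + 1 = 2 ^ a) : k ≤ 1 := by
  by_contra hk
  push Not at hk
  have hodd : Odd q := hq.odd_of_ne_two hq2
  have hq3 : 3 ≤ q := by
    have := hq.two_le
    omega
  rcases Nat.even_or_odd k with hke | hko
  · obtain ⟨j, rfl⟩ := hke
    have h1 : q ^ (j + j) % 4 = 1 := by
      have h2 : Odd (q ^ j) := hodd.pow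
      rw [pow_add, Nat.mul_mod]
      have h3 : q ^ j % 4 = 1 ∨ q ^ j % 4 = 3 := by
        rcases h2 with ⟨m, hm⟩
        omega
      rcases h3 with h3 | h3 <;> rw [h3]
    have ha : a ≤ 1 := by
      by_contra ha
      obtain ⟨b, rfl⟩ : ∃ b, a = b + 2 := ⟨a - 2, by omega⟩
      have : 2 ^ (b + 2) = 4 * 2 ^ b := by ring
      omega
    have h4 : 3 ^ 2 ≤ q ^ (j + j) := (Nat.pow_le_pow_left hq3 2).trans (Nat.pow_le_pow_right (by omega) (by omega))
    have h5 : 2 ^ a ≤ 2 ^ 1 := Nat.pow_le_pow_right (by norm_num) ha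
    omega
  · have hdvd : q + 1 ∣ 2 ^ a := by
      rw [← h]
      have := hko.nat_add_dvd_pow_add_pow q 1
      rwa [one_pow] at this
    obtain ⟨b, hb, hqb⟩ := (Nat.dvd_prime_pow Nat.prime_two).1 hdvd
    have hb1 : 1 ≤ b := by
      rcases Nat.eq_zero_or_pos b with h0 | h0
      · rw [h0] at hqb; omega
      · exact h0
    have hlt : q ^ 1 < q ^ k := Nat.pow_lt_pow_right (by omega) hk
    rw [pow_one] at hlt
    have hba : b < a := by
      have : 2 ^ b < 2 ^ a := by rw [← h, ← hqb]; omega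
      exact (Nat.pow_lt_pow_iff_right (by norm_num)).1 this
    obtain ⟨j, rfl⟩ := hko
    have hmod : q * q ≡ 1 [MOD 2 ^ (b + 1)] := by
      have hqb' : q = 2 ^ b - 1 := by omega
      have h2b : 1 ≤ 2 ^ b := Nat.one_le_two_pow
      have h3 : q * q + 2 ^ (b + 1) = 2 ^ (b + 1) * 2 ^ (b - 1) + 1 := by
        obtain ⟨c, rfl⟩ : ∃ c, b = c + 1 := ⟨b - 1, by omega⟩
        rw [Nat.add_sub_cancel]
        have h4 : q + 1 = 2 * 2 ^ c := by rw [hqb]; ring
        have h5 : 2 ^ (c + 1 + 1) = 4 * 2 ^ c := by ring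
        rw [h5]
        obtain ⟨w, hw⟩ : ∃ w, w = 2 ^ c := ⟨_, rfl⟩
        rw [← hw] at h4 ⊢
        have h6 : q = 2 * w - 1 := by omega
        obtain ⟨w', rfl⟩ : ∃ w', w = w' + 1 := ⟨w - 1, by omega⟩
        have h7 : q = 2 * w' + 1 := by omega
        rw [h7]
        ring
      have h4 : q * q + 2 ^ (b + 1) ≡ 1 [MOD 2 ^ (b + 1)] := by
        rw [h3]
        simp
      have h5 : q * q + 2 ^ (b + 1) ≡ q * q [MOD 2 ^ (b + 1)] := by
        simp [Nat.ModEq]
      exact h5.symm.trans h4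
    have hmod2 : q ^ (2 * j + 1) + 1 ≡ q + 1 [MOD 2 ^ (b + 1)] := by
      have h5 : (q * q) ^ j ≡ 1 ^ j [MOD 2 ^ (b + 1)] := hmod.pow j
      have h6 := (h5.mul_right q).add_right 1
      rw [one_pow, one_mul] at h6
      have h7 : q ^ (2 * j + 1) = (q * q) ^ j * q := by
        rw [pow_succ, pow_mul, pow_two]
      rw [h7]
      exact h6
    have h8 : 2 ^ (b + 1) ∣ 2 ^ b := by
      have h9 : 2 ^ (b + 1) ∣ q ^ (2 * j + 1) + 1 := by
        rw [h]; exact pow_dvd_pow 2 hba
      have h10 := (Nat.ModEq.dvd_iff hmod2 dvd_rfl).1 h9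
      rwa [hqb] at h10
    have h11 := (Nat.pow_dvd_pow_iff_le_right (by norm_num : 1 < 2)).1 h8
    omega

/-! ### restriction -/

section Restrict

variable {K : Type*} [Field K] [CharP K 2] {V : Type*} [AddCommGroup V] [Module K V]

theorem sum_pow (X : Module.End K V) (s a : ℕ) :
    ∑ i ∈ Finset.range (2 ^ (s + a)), X ^ i =
      ∑ i ∈ Finset.range (2 ^ s), X ^ i * ∑ j ∈ Finset.range (2 ^ a), (X ^ 2 ^ s) ^ j := by
  rw [pow_add, mul_comm (2 ^ s) (2 ^ a)]
  generalize 2 ^ s = m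
  generalize 2 ^ a = n
  induction n with
  | zero => simp
  | succ n ih =>
    rw [Nat.succ_mul, Finset.sum_range_add, ih]
    simp_rw [Finset.sum_range_succ, mul_add]
    rw [Finset.sum_add_distrib]
    congr 1
    refine Finset.sum_congr rfl fun i _ => ?_
    rw [← pow_mul, ← pow_add, mul_comm n m, add_comm]

/-- restriction to a subspace with independent translates -/
theorem step {X : Module.End K V} {e : ℕ} (hX : (X - 1) ^ (2 ^ e - 1) = 0) {s : ℕ} (hs : s ≤ e)
    {U : Submodule K V} (hU : U ≠ ⊥) (hst : ∀ u ∈ U, (X ^ 2 ^ s) u ∈ U)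
    (hind : ∀ u ∈ U, ∑ i ∈ Finset.range (2 ^ s), (X ^ i) u = 0 → u = 0) :
    s < e ∧ ((X ^ 2 ^ s).restrict hst - 1) ^ (2 ^ (e - s) - 1) = 0 := by
  have : Fact (Nat.Prime 2) := ⟨Nat.prime_two⟩
  have h0 : ∑ i ∈ Finset.range (2 ^ e), X ^ i = 0 := by
    rw [Cfsg.Agent.PLocal.HHBUnip.geom_eq K 2, hX]
  constructor
  · refine lt_of_le_of_ne hs ?_
    rintro rfl
    obtain ⟨u, hu, hu0⟩ := Submodule.exists_mem_ne_zero_of_ne_bot hU
    apply hu0
    apply hind u hu
    rw [← LinearMap.sum_apply, h0, LinearMap.zero_apply]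
  · rw [← Cfsg.Agent.PLocal.HHBUnip.geom_eq K 2]
    have hpow : ∀ (j : ℕ) (u : U), ((((X ^ 2 ^ s).restrict hst) ^ j) u : V) = ((X ^ 2 ^ s) ^ j) u := by
      intro j
      induction j with
      | zero => intro u; simp
      | succ j ih =>
        intro u
        rw [pow_succ', Module.End.mul_apply, LinearMap.coe_restrict_apply, ih, pow_succ', Module.End.mul_apply]
    ext u
    rw [LinearMap.sum_apply, LinearMap.zero_apply, ZeroMemClass.coe_zero, AddSubmonoidClass.coe_finsetSum]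
    apply hind
    · refine U.sum_mem fun j _ => ?_
      exact Submodule.coe_mem _
    · have h1 := LinearMap.congr_fun (sum_pow X s (e - s)) (u : V)
      rw [Nat.add_sub_cancel' hs, h0, LinearMap.zero_apply] at h1
      rw [h1, LinearMap.sum_apply]
      refine Finset.sum_congr rfl fun i _ => ?_
      rw [Module.End.mul_apply, LinearMap.sum_apply]
      congr 1
      exact Finset.sum_congr rfl fun j _ => hpow j u

/-- the representation on an invariant subspace -/
def subRep {E : Type*} [Group E] (ρ : E →* Module.End K V) (U : Submodule K V) (hU : ∀ h, ∀ u ∈ U, ρ h u ∈ U) :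
    E →* Module.End K U where
  toFun h := (ρ h).restrict (hU h)
  map_one' := by ext u; simp
  map_mul' := by intro a b; ext u; simp [LinearMap.restrict_apply]

theorem coe_subRep {E : Type*} [Group E] (ρ : E →* Module.End K V) (U : Submodule K V)
    (hU : ∀ h, ∀ u ∈ U, ρ h u ∈ U) (h : E) (u : U) : (subRep ρ U hU h u : V) = ρ h u := rfl

end Restrict

section Main

variable {K : Type*} [Field K] [IsAlgClosed K] [CharP K 2] {V : Type*} [AddCommGroup V] [Module K V]
  [FiniteDimensional K V] [Nontrivial V] {E : Type*} [Group E] [Finite E] {q : ℕ} [Fact q.Prime]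

/-- **the radical of the commutator form has index `1` or `q ^ 2`** -/
theorem core_dim (hE : IsPGroup q E) (hq : q ≠ 2) {ρ : E →* Module.End K V} {κ : E → E → K}
    (hκ : CommScalar ρ κ) {X : (Module.End K V)ˣ} {σ : MulAut E}
    (hX : ∀ h, (X : Module.End K V) * ρ h = ρ (σ h) * X) {e : ℕ} (he : 1 ≤ e)
    (hX0 : ((X : Module.End K V) - 1) ^ (2 ^ e - 1) = 0) (hσ : σ ^ 2 ^ e = 1)
    (hgen : Subgroup.closure {z : E | ∃ h : E, z = (σ ^ 2 ^ (e - 1)) h * h⁻¹} = ⊤) (hne : ∃ h, ρ h ≠ 1) :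
    hκ.rad.index = 1 ∨ hκ.rad.index = q ^ 2 := by
  classical
  have : Fact (Nat.Prime 2) := ⟨Nat.prime_two⟩
  have hqp : q.Prime := Fact.out
  have : CharP (Module.End K V) 2 := charP_of_injective_algebraMap (algebraMap K (Module.End K V)).injective 2
  let _ : Fintype E := Fintype.ofFinite E
  obtain ⟨N, hN⟩ := IsPGroup.iff_card.1 hE
  have hcard : (Fintype.card E : K) ≠ 0 := by
    rw [← Nat.card_eq_fintype_card, hN]
    intro h0
    rw [CharP.cast_eq_zero_iff K 2] at h0
    exact hq ((Nat.prime_dvd_prime_iff_eq Nat.prime_two hqp).1 (Nat.prime_two.dvd_of_dvd_pow h0)).symm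
  have hXe : X ^ 2 ^ e = 1 := by
    apply Units.ext
    have h1 : ((X : Module.End K V) - 1) ^ 2 ^ e = 0 := by
      have h2 : 2 ^ e = (2 ^ e - 1) + 1 := (Nat.sub_add_cancel Nat.one_le_two_pow).symm
      rw [h2, pow_succ, hX0, zero_mul]
    rw [sub_pow_char_pow_of_commute _ _ (Commute.one_right _), one_pow] at h1
    rw [Units.val_pow_eq_pow_val, Units.val_one]
    exact sub_eq_zero.1 h1
  obtain ⟨s, hs, U, hU, hUρ, hirr, ⟨h₁, u₁, hu₁, hne₁⟩, hUX, hind⟩ := Cfsg.Agent.PLocal.HHBClifford.clifford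
    (p := 2) (by rwa [Nat.card_eq_fintype_card]) ρ X σ hX e hXe hne
  obtain ⟨hse, hY0⟩ := step hX0 hs hU hUX hind
  set a := e - s with ha
  have ha1 : 1 ≤ a := by omega
  have : Nontrivial U := Submodule.nontrivial_iff_ne_bot.2 hU
  have : CharP (Module.End K U) 2 := charP_of_injective_algebraMap (algebraMap K (Module.End K U)).injective 2
  have hYa : (((X : Module.End K V) ^ 2 ^ s).restrict hUX) ^ 2 ^ a = 1 := by
    have h1 : (((X : Module.End K V) ^ 2 ^ s).restrict hUX - 1) ^ 2 ^ a = 0 := by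
      have h2 : 2 ^ a = (2 ^ a - 1) + 1 := (Nat.sub_add_cancel Nat.one_le_two_pow).symm
      rw [h2, pow_succ, hY0, zero_mul]
    rw [sub_pow_char_pow_of_commute _ _ (Commute.one_right _), one_pow] at h1
    exact sub_eq_zero.1 h1
  obtain ⟨Y, hY⟩ : ∃ Y : (Module.End K U)ˣ, (Y : Module.End K U) = ((X : Module.End K V) ^ 2 ^ s).restrict hUX :=
    IsUnit.of_pow_eq_one hYa (pow_pos (by norm_num) a).ne'
  let ρU := subRep ρ U hUρ
  have hκU : CommScalar ρU κ := ⟨fun b c => by
    ext u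
    exact LinearMap.congr_fun (hκ.comm b c) (u : V)⟩
  have hirrU : IsIrr ρU := by
    intro S hS
    have h1 := hirr (S.map U.subtype) (by rintro _ ⟨u, _, rfl⟩; exact u.2) (by
      rintro h _ ⟨u, hu, rfl⟩
      exact ⟨ρU h u, hS h u hu, rfl⟩)
    rcases h1 with h1 | h1
    · left
      exact Submodule.map_injective_of_injective U.injective_subtype (h1.trans (Submodule.map_bot _).symm)
    · right
      rw [eq_top_iff]
      intro u _
      have h2 : (u : V) ∈ S.map U.subtype := by rw [h1]; exact u.2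
      obtain ⟨w, hw, e⟩ := h2
      rwa [← Subtype.ext e]
  have hXpow : ∀ m : ℕ, ∀ h, ((X : Module.End K V) ^ m) * ρ h = ρ ((σ ^ m) h) * ((X : Module.End K V) ^ m) := by
    intro m
    induction m with
    | zero => intro h; simp
    | succ m ih =>
      intro h
      rw [pow_succ', mul_assoc, ih, ← mul_assoc, hX, pow_succ', MulAut.mul_apply, mul_assoc]
  have hYρ : ∀ h, (Y : Module.End K U) * ρU h = ρU ((σ ^ 2 ^ s) h) * Y := by
    intro h
    ext u
    rw [hY]
    exact LinearMap.congr_fun (hXpow (2 ^ s) h) (u : V)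
  have hσa : (σ ^ 2 ^ s) ^ 2 ^ a = 1 := by
    rw [← pow_mul, ← pow_add, ha, Nat.add_sub_cancel' hs, hσ]
  have hpowe : (σ ^ 2 ^ s) ^ 2 ^ (a - 1) = σ ^ 2 ^ (e - 1) := by
    rw [← pow_mul, ← pow_add]
    congr 2
    omega
  have hgen' : Subgroup.closure {z : E | ∃ h : E, z = ((σ ^ 2 ^ s) ^ 2 ^ (a - 1)) h * h⁻¹} = ⊤ := by
    rw [hpowe]; exact hgen
  have hD : Decomp Y (2 ^ a) := fun T hT => hκU.exists_trace hirrU hcard hYρ ha1 hσa hgen' hT
  have hY1 : (Y : Module.End K U) - 1 ≠ 0 := by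
    intro h0
    have h1 : (Y : Module.End K U) = 1 := sub_eq_zero.1 h0
    have h2 : ∀ h, ρU ((σ ^ 2 ^ s) h) = ρU h := by
      intro h
      have := hYρ h
      rw [h1, one_mul, mul_one] at this
      exact this.symm
    have h3 : ∀ (j : ℕ) (h : E), ρU (((σ ^ 2 ^ s) ^ j) h) = ρU h := by
      intro j
      induction j with
      | zero => intro h; simp
      | succ j ih => intro h; rw [pow_succ', MulAut.mul_apply, h2, ih]
    have h4 : ρU.ker = ⊤ := by
      rw [eq_top_iff, ← hgen', Subgroup.closure_le]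
      rintro _ ⟨h, rfl⟩
      show ρU _ = 1
      rw [map_mul, h3, ← map_mul, mul_inv_cancel, map_one]
    have h5 : ρU h₁ = 1 := by
      have : h₁ ∈ ρU.ker := by rw [h4]; trivial
      exact this
    apply hne₁
    have h6 := LinearMap.congr_fun h5 ⟨u₁, hu₁⟩
    exact congrArg Subtype.val h6
  have hYY : ((Y : Module.End K U) - 1) ^ (2 ^ a - 1) = 0 := by rw [hY]; exact hY0
  have hdim := finrank_eq_of_decomp 2 a ha1 hD hY1 hYY
  have hsq := Cfsg.Agent.PLocal.HHBFinrankSq.finrank_sq hcard hκU hirrU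
  have hrad : hκU.rad = hκ.rad := rfl
  rw [hrad] at hsq
  have hdvd : finrank K U ∣ q ^ N := by
    rw [← hN]
    refine (Dvd.intro_left (finrank K U) ?_).trans (Subgroup.index_dvd_card hκ.rad)
    rw [← hsq, pow_two]
  obtain ⟨k, hk, hqk⟩ := (Nat.dvd_prime_pow hqp).1 hdvd
  have hk1 : k ≤ 1 := by
    refine pow_eq (a := a) hqp hq ?_
    rw [← hqk, hdim]
    exact Nat.sub_add_cancel Nat.one_le_two_pow
  rw [← hsq, hqk]
  interval_cases k
  · left; simp
  · right; simp

end Main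

end Cfsg.Agent.H557.CoreDim
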