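import Mathlib
import Cfsg.Agent.H557.CoreDim
import Cfsg.Agent.H557.E1

/-!
helper557: part C of the proof of S4258 (helper552), second half.

* `weights_indep` : weight vectors of distinct weights are independent;
* `E2` : **the radical of the commutator form of a weight has index `1` or `q ^ 2` in `[Q, z] S`**.
-/

set_option autoImplicit false
set_option linter.unusedSectionVars false

namespace Cfsg.Agent.H557.PartC

open scoped commutatorElement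

open Module Cfsg.Agent.PLocal.HHBLinear Cfsg.Agent.PLocal.HHBJordan Cfsg.Agent.H557.CoreDim

theorem weights_indep {K : Type*} [Field K] {V : Type*} [AddCommGroup V] [Module K V] {Z : Type*} [Group Z]
    (ρ : Z →* Module.End K V) (χ : ℕ → Z →* Kˣ) (n : ℕ) : ∀ (v : ℕ → V),
    (∀ i < n, ∀ j < n, χ i = χ j → i = j) → (∀ i < n, ∀ c, ρ c (v i) = (χ i c : K) • v i) →
    ∑ i ∈ Finset.range n, v i = 0 → ∀ i < n, v i = 0 := by
  induction n with
  | zero => intro v _ _ _ i hi; exact absurd hi (Nat.not_lt_zero i)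
  | succ n ih =>
    intro v hχ hv hsum
    have h1 : ∀ c : Z, ∑ i ∈ Finset.range n, (((χ i c : Kˣ) : K) - ((χ n c : Kˣ) : K)) • v i = 0 := by
      intro c
      have h2 := congrArg (ρ c) hsum
      rw [map_sum, map_zero, Finset.sum_range_succ, hv n (Nat.lt_succ_self n) c,
        Finset.sum_congr rfl fun i hi => hv i ((Finset.mem_range.1 hi).trans (Nat.lt_succ_self n)) c] at h2
      rw [Finset.sum_range_succ] at hsum
      have h3 : v n = -∑ i ∈ Finset.range n, v i := (neg_eq_of_add_eq_zero_right hsum).symm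
      rw [h3, smul_neg, Finset.smul_sum, ← sub_eq_add_neg, ← Finset.sum_sub_distrib] at h2
      rw [← h2]
      exact Finset.sum_congr rfl fun i _ => sub_smul _ _ _
    have h2 : ∀ i < n, v i = 0 := by
      intro i hi
      have hne : χ i ≠ χ n := fun h => by
        have := hχ i (hi.trans (Nat.lt_succ_self n)) n (Nat.lt_succ_self n) h
        omega
      obtain ⟨c, hc⟩ := DFunLike.ne_iff.1 hne
      have h3 := ih (fun i => (((χ i c : Kˣ) : K) - ((χ n c : Kˣ) : K)) • v i)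
        (fun i hi j hj => hχ i (hi.trans (Nat.lt_succ_self n)) j (hj.trans (Nat.lt_succ_self n)))
        (fun i hi d => by rw [map_smul, hv i (hi.trans (Nat.lt_succ_self n)) d, smul_comm]) (h1 c) i hi
      exact (smul_eq_zero.1 h3).resolve_left (sub_ne_zero.2 fun h => hc (Units.ext h))
    intro i hi
    rcases Nat.lt_succ_iff_lt_or_eq.1 hi with h3 | h3
    · exact h2 i h3
    · subst h3
      rw [Finset.sum_range_succ, Finset.sum_eq_zero fun j hj => h2 j (Finset.mem_range.1 hj), zero_add] at hsum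
      exact hsum

/-! ### group theory -/

section Groups

variable {G : Type*} [Group G] [Finite G] {q : ℕ} [Fact q.Prime] {Q Z : Subgroup G}

/-- an element of odd order inverted by `z` is the square of such an element -/
theorem exists_sqrt {t : G} (ht : Odd (orderOf t)) : ∃ k : ℕ, t ^ k * t ^ k = t := by
  obtain ⟨m, hm⟩ := ht
  refine ⟨m + 1, ?_⟩
  rw [← pow_add, show m + 1 + (m + 1) = (2 * m + 1) + 1 by ring, pow_succ, ← hm, pow_orderOf_eq_one, one_mul]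

theorem odd_order (hQ : IsPGroup q Q) (hq : q ≠ 2) {t : G} (ht : t ∈ Q) : Odd (orderOf t) := by
  obtain ⟨k, hk⟩ := hQ ⟨t, ht⟩
  have h1 : t ^ q ^ k = 1 := congrArg Subtype.val hk
  exact (((Fact.out : q.Prime).odd_of_ne_two hq).pow).of_dvd_nat (orderOf_dvd_of_pow_eq_one h1)

variable {z : G}

theorem commutator_eq (hz : z * z = 1) :
    ⁅Q, Subgroup.zpowers z⁆ = Subgroup.closure {t | ∃ h ∈ Q, t = h * z * h⁻¹ * z⁻¹} := by
  apply le_antisymm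
  · rw [Subgroup.commutator_le]
    rintro h hh _ ⟨k, rfl⟩
    rcases Int.even_or_odd' k with ⟨j, rfl | rfl⟩
    · have h1 : z ^ (2 * j) = 1 := by rw [zpow_mul, zpow_two, hz, one_zpow]
      simp only [h1, commutatorElement_one_right]
      exact Subgroup.one_mem _
    · have h1 : z ^ (2 * j + 1) = z := by rw [zpow_add, zpow_mul, zpow_two, hz, one_zpow, one_mul, zpow_one]
      simp only [h1]
      exact Subgroup.subset_closure ⟨h, hh, rfl⟩
  · rw [Subgroup.closure_le]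
    rintro _ ⟨h, hh, rfl⟩
    exact Subgroup.commutator_mem_commutator hh (Subgroup.mem_zpowers z)

theorem conj_gen (hz : z * z = 1) (h : G) :
    z * (h * z * h⁻¹ * z⁻¹) * z⁻¹ = (h * z * h⁻¹ * z⁻¹)⁻¹ := by
  have h1 : z⁻¹ = z := inv_eq_of_mul_eq_one_left hz
  simp only [mul_inv_rev, inv_inv, h1, mul_assoc]
  rw [hz, mul_one]

theorem comm_le (hz : z * z = 1) (hzQ : ∀ a ∈ Q, z * a * z⁻¹ ∈ Q) : ⁅Q, Subgroup.zpowers z⁆ ≤ Q := by
  rw [commutator_eq hz, Subgroup.closure_le]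
  rintro _ ⟨h, hh, rfl⟩
  have h1 : h * z * h⁻¹ * z⁻¹ = h * (z * h⁻¹ * z⁻¹) := by group
  show h * z * h⁻¹ * z⁻¹ ∈ Q
  rw [h1]
  exact Q.mul_mem hh (hzQ _ (Q.inv_mem hh))

/-- `[E, z] = E` -/
theorem comm_comm (hQ : IsPGroup q Q) (hq : q ≠ 2) (hz : z * z = 1) (hzQ : ∀ a ∈ Q, z * a * z⁻¹ ∈ Q)
    {H : Subgroup G} (hH : ∀ h ∈ ⁅Q, Subgroup.zpowers z⁆, z * h * z⁻¹ * h⁻¹ ∈ H) : ⁅Q, Subgroup.zpowers z⁆ ≤ H := by
  have hle := comm_le hz hzQ
  rw [commutator_eq hz] at hH hle ⊢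
  rw [Subgroup.closure_le]
  rintro _ ⟨h, hh, rfl⟩
  set t := h * z * h⁻¹ * z⁻¹ with ht
  have htE : t ∈ Subgroup.closure {t | ∃ h ∈ Q, t = h * z * h⁻¹ * z⁻¹} := Subgroup.subset_closure ⟨h, hh, rfl⟩
  have h1 := hH t htE
  rw [conj_gen hz h] at h1
  obtain ⟨k, hk⟩ := exists_sqrt (odd_order hQ hq (hle htE))
  have h2 : t = ((t⁻¹ * t⁻¹) ^ k)⁻¹ := by
    conv_lhs => rw [← hk]
    rw [← inv_pow, mul_inv_rev, inv_inv, ← pow_add, ← pow_two, ← pow_mul, two_mul]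
  show t ∈ H
  rw [h2]
  exact H.inv_mem (H.pow_mem h1 k)

/-- `Q = E C_Q(z)` -/
theorem exists_decomp (hQ : IsPGroup q Q) (hq : q ≠ 2) (hz : z * z = 1) (hzQ : ∀ a ∈ Q, z * a * z⁻¹ ∈ Q)
    {b : G} (hb : b ∈ Q) : ∃ r ∈ ⁅Q, Subgroup.zpowers z⁆, ∃ c ∈ Q, z * c = c * z ∧ b = r * c := by
  have hle := comm_le hz hzQ
  have hz1 : z⁻¹ = z := inv_eq_of_mul_eq_one_left hz
  set t := z * b * z⁻¹ * b⁻¹ with ht
  have htE : t ∈ ⁅Q, Subgroup.zpowers z⁆ := by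
    rw [Subgroup.commutator_comm]
    exact Subgroup.commutator_mem_commutator (Subgroup.mem_zpowers z) hb
  have hinv : z * t * z⁻¹ = t⁻¹ := by
    rw [ht]
    simp only [mul_inv_rev, inv_inv, hz1, mul_assoc]
    rw [← mul_assoc z z, hz, one_mul]
  obtain ⟨k, hk⟩ := exists_sqrt (odd_order hQ hq (hle htE))
  have hr : z * t ^ k * z⁻¹ = (t ^ k)⁻¹ := by rw [← conj_pow, hinv, inv_pow]
  refine ⟨(t ^ k)⁻¹, Subgroup.inv_mem _ (Subgroup.pow_mem _ htE k), t ^ k * b,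
    Q.mul_mem (hle (Subgroup.pow_mem _ htE k)) hb, ?_, by rw [inv_mul_cancel_left]⟩
  have h1 : z * b * z⁻¹ = t * b := by rw [ht]; group
  have h2 : z * (t ^ k * b) * z⁻¹ = t ^ k * b := by
    have h3 : z * (t ^ k * b) * z⁻¹ = (z * t ^ k * z⁻¹) * (z * b * z⁻¹) := by group
    rw [h3, hr, h1, ← mul_assoc, inv_mul_eq_iff_eq_mul.2 hk.symm]
  exact mul_inv_eq_iff_eq_mul.1 h2

/-- `C_Q(z)` centralizes `E` -/
theorem cent_comm (hz : z * z = 1) (hzQ : ∀ a ∈ Q, z * a * z⁻¹ ∈ Q) (hcen : ∀ c ∈ Z, ∀ a ∈ Q, c * a = a * c)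
    (hcomm : ∀ a ∈ Q, ∀ b ∈ Q, ⁅a, b⁆ ∈ Z) (hzZ : ∀ c ∈ Z, z * c = c * z) {c : G} (hc : c ∈ Q)
    (hcz : z * c = c * z) {t : G} (ht : t ∈ ⁅Q, Subgroup.zpowers z⁆) : c * t = t * c := by
  have hle := comm_le hz hzQ
  rw [commutator_eq hz] at ht hle
  refine Subgroup.closure_induction (p := fun t _ => c * t = t * c) ?_ ?_ ?_ ?_ ht
  · rintro _ ⟨h, hh, rfl⟩
    have h1 : c * h = ⁅c, h⁆ * (h * c) := by rw [commutatorElement_def]; group
    have hk := hcomm c hc h hh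
    set k := ⁅c, h⁆ with hkdef
    set t := h * z * h⁻¹ * z⁻¹ with ht'
    have htQ : t ∈ Q := hle (Subgroup.subset_closure ⟨h, hh, rfl⟩)
    have h2 : c * h * c⁻¹ = k * h := by rw [h1]; group
    have h3 : c * z * c⁻¹ = z := by rw [← hcz]; group
    have h4 : c * t * c⁻¹ = t := by
      have h5 : c * t * c⁻¹ = (c * h * c⁻¹) * (c * z * c⁻¹) * (c * h * c⁻¹)⁻¹ * (c * z * c⁻¹)⁻¹ := by
        rw [ht']; group
      rw [h5, h2, h3, mul_inv_rev]
      have h6 : k⁻¹ * z⁻¹ = z⁻¹ * k⁻¹ := by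
        rw [← mul_inv_rev, ← mul_inv_rev, hzZ k hk]
      have h7 : k * h * z * (h⁻¹ * k⁻¹) * z⁻¹ = k * (h * z * h⁻¹ * z⁻¹) * k⁻¹ := by
        simp only [mul_assoc]
        rw [h6]
      rw [h7, ← ht', hcen k hk t htQ, mul_inv_cancel_right]
    exact mul_inv_eq_iff_eq_mul.1 h4
  · rw [mul_one, one_mul]
  · intro a b _ _ ha hb
    rw [← mul_assoc, ha, mul_assoc, hb, mul_assoc]
  · intro a _ ha
    exact (Commute.inv_right (show Commute c a from ha)).eq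

end Groups

/-! ### the faithful case -/

section Faithful

variable {K : Type*} [Field K] [IsAlgClosed K] [CharP K 2] {V : Type*} [AddCommGroup V] [Module K V]
  [FiniteDimensional K V] {G : Type*} [Group G] [Finite G] (ρ : G →* Module.End K V) {y : G} {e q : ℕ}
  [Fact q.Prime] {Q Z : Subgroup G}

/-- the weight space -/
def wsp (μ : Z →* Kˣ) : Submodule K V where
  carrier := {v | ∀ c : Z, ρ c v = (μ c : K) • v}
  add_mem' {a b} ha hb c := by rw [map_add, ha, hb, smul_add]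
  zero_mem' c := by rw [map_zero, smul_zero]
  smul_mem' a v hv c := by rw [map_smul, hv, smul_comm]

theorem mem_wsp {μ : Z →* Kˣ} {v : V} : v ∈ wsp ρ μ ↔ ∀ c : Z, ρ c v = (μ c : K) • v := Iff.rfl

theorem E2_faithful (hinj : Function.Injective ρ) (hq : q ≠ 2) (he : 1 ≤ e) (hy : (ρ y - 1) ^ (2 ^ e - 1) = 0)
    (hQ : IsPGroup q Q) (hZQ : Z ≤ Q) (hcen : ∀ c ∈ Z, ∀ a ∈ Q, c * a = a * c)
    (hcomm : ∀ a ∈ Q, ∀ b ∈ Q, ⁅a, b⁆ ∈ Z) (hyQ : y ∈ Subgroup.normalizer (Q : Set G))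
    (hyZ : y ∈ Subgroup.normalizer (Z : Set G)) (hzZ : ∀ c ∈ Z, y ^ 2 ^ (e - 1) * c = c * y ^ 2 ^ (e - 1))
    (μ : Z →* Kˣ) {v : V} (hv0 : v ≠ 0) (hv : ∀ c : Z, ρ c v = (μ c : K) • v) {S : Subgroup G}
    (hS : ∀ a, a ∈ S ↔ a ∈ Q ∧ ∀ b ∈ Q, ∀ h : ⁅a, b⁆ ∈ Z, μ ⟨⁅a, b⁆, h⟩ = 1) :
    S.relIndex (⁅Q, Subgroup.zpowers (y ^ 2 ^ (e - 1))⁆ ⊔ S) = 1 ∨
      S.relIndex (⁅Q, Subgroup.zpowers (y ^ 2 ^ (e - 1))⁆ ⊔ S) = q ^ 2 := by
  classical
  set z := y ^ 2 ^ (e - 1) with hzdef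
  have hye : y ^ 2 ^ e = 1 := by
    apply hinj
    rw [map_pow, map_one, pow_eq_one hy]
  have hz : z * z = 1 := by
    rw [hzdef, ← pow_add, ← two_mul, ← pow_succ', Nat.sub_add_cancel he, hye]
  have hyQ' : ∀ a ∈ Q, y * a * y⁻¹ ∈ Q := fun a ha => (Subgroup.mem_normalizer_iff.1 hyQ a).1 ha
  have hyQp : ∀ (k : ℕ), ∀ a ∈ Q, y ^ k * a * (y ^ k)⁻¹ ∈ Q := fun k a ha =>
    (Subgroup.mem_normalizer_iff.1 (Subgroup.pow_mem _ hyQ k) a).1 ha
  have hzQ : ∀ a ∈ Q, z * a * z⁻¹ ∈ Q := hyQp _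
  set E := ⁅Q, Subgroup.zpowers z⁆ with hE
  have hEQ : E ≤ Q := comm_le hz hzQ
  have hSQ : S ≤ Q := fun a ha => ((hS a).1 ha).1
  have hZS : Z ≤ S := fun c hc => (hS c).2 ⟨hZQ hc, fun b hb h => by
    have h1 : ⁅c, b⁆ = 1 := commutatorElement_eq_one_iff_mul_comm.2 (hcen c hc b hb)
    have h2 : (⟨⁅c, b⁆, h⟩ : Z) = 1 := Subtype.ext h1
    rw [h2, map_one]⟩
  -- the relative index
  have hrel : S.relIndex (E ⊔ S) = S.relIndex E := by
    have hN : (S.subgroupOf Q).Normal := by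
      refine ⟨?_⟩
      rintro ⟨a, ha⟩ haS ⟨g, hg⟩
      rw [Subgroup.mem_subgroupOf] at haS ⊢
      show g * a * g⁻¹ ∈ S
      have h1 : g * a * g⁻¹ = ⁅g, a⁆ * a := by rw [commutatorElement_def]; group
      rw [h1]
      exact S.mul_mem (hZS (hcomm g hg a ha)) haS
    rw [← Subgroup.relIndex_subgroupOf (sup_le hEQ hSQ), Subgroup.subgroupOf_sup hEQ hSQ,
      Subgroup.relIndex_sup_right, Subgroup.relIndex_subgroupOf hEQ]
  rw [hrel]
  -- `y` normalizes `E`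
  have hyz : y * z * y⁻¹ = z := by rw [hzdef, ← pow_succ', pow_succ, mul_inv_cancel_right]
  have hyE : y ∈ Subgroup.normalizer (E : Set G) := by
    have key : ∀ w : G, (∀ a ∈ Q, w * a * w⁻¹ ∈ Q) → w * z * w⁻¹ = z → ∀ a ∈ E, w * a * w⁻¹ ∈ E := by
      intro w hwQ hwz a ha
      rw [hE, commutator_eq hz] at ha ⊢
      refine Subgroup.closure_induction (p := fun a _ => w * a * w⁻¹ ∈ _) ?_ ?_ ?_ ?_ ha
      · rintro _ ⟨h, hh, rfl⟩
        refine Subgroup.subset_closure ⟨w * h * w⁻¹, hwQ h hh, ?_⟩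
        have h1 : w * (h * z * h⁻¹ * z⁻¹) * w⁻¹ =
            (w * h * w⁻¹) * (w * z * w⁻¹) * (w * h * w⁻¹)⁻¹ * (w * z * w⁻¹)⁻¹ := by group
        rw [h1, hwz]
      · rw [mul_one, mul_inv_cancel]; exact Subgroup.one_mem _
      · intro a b _ _ ha hb
        have h1 : w * (a * b) * w⁻¹ = (w * a * w⁻¹) * (w * b * w⁻¹) := by group
        rw [h1]; exact Subgroup.mul_mem _ ha hb
      · intro a _ ha
        have h1 : w * a⁻¹ * w⁻¹ = (w * a * w⁻¹)⁻¹ := by group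
        rw [h1]; exact Subgroup.inv_mem _ ha
    have hy1 : ∀ a ∈ Q, y⁻¹ * a * y⁻¹⁻¹ ∈ Q := fun a ha =>
      (Subgroup.mem_normalizer_iff.1 (Subgroup.inv_mem _ hyQ) a).1 ha
    rw [Subgroup.mem_normalizer_iff]
    refine fun a => ⟨key y hyQ' hyz a, fun ha => ?_⟩
    have h1 := key y⁻¹ hy1 (by
      have h2 : y⁻¹ * z * y⁻¹⁻¹ = y⁻¹ * (y * z * y⁻¹) * y := by rw [hyz, inv_inv]
      rw [h2]; group) _ ha
    have h2 : y⁻¹ * (y * a * y⁻¹) * y⁻¹⁻¹ = a := by group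
    rwa [h2] at h1
  have hEp : IsPGroup q E := hQ.to_le hEQ
  -- the automorphism of `E`
  let ξ : Subgroup.normalizer (E : Set G) := ⟨y, hyE⟩
  let σ : MulAut E := E.normalizerMonoidHom ξ
  have hσ : ∀ (k : ℕ) (h : E), (((σ ^ k) h : E) : G) = y ^ k * h * (y ^ k)⁻¹ := by
    intro k h
    have h1 : σ ^ k = E.normalizerMonoidHom (ξ ^ k) := (map_pow _ _ _).symm
    rw [h1]
    rfl
  -- the automorphism of `Z`
  let ζ : Subgroup.normalizer (Z : Set G) := ⟨y, hyZ⟩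
  let θ : MulAut Z := Z.normalizerMonoidHom ζ
  have hθ : ∀ (k : ℕ) (h : Z), (((θ ^ k) h : Z) : G) = y ^ k * h * (y ^ k)⁻¹ := by
    intro k h
    have h1 : θ ^ k = Z.normalizerMonoidHom (ζ ^ k) := (map_pow _ _ _).symm
    rw [h1]
    rfl
  let F : (Z →* Kˣ) → (Z →* Kˣ) := fun χ => χ.comp (θ⁻¹ : MulAut Z).toMonoidHom
  have hF : ∀ (k : ℕ) (χ : Z →* Kˣ) (c : Z), (F^[k] χ) ((θ ^ k) c) = χ c := by
    intro k
    induction k with
    | zero => intro χ c; rfl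
    | succ k ih =>
      intro χ c
      rw [Function.iterate_succ_apply, pow_succ, MulAut.mul_apply, ih]
      show χ (θ⁻¹ (θ c)) = χ c
      rw [MulAut.inv_apply_self]
  have hwt : ∀ (k : ℕ) (u : V), u ∈ wsp ρ μ → ∀ c : Z, ρ c (((ρ y) ^ k) u) = ((F^[k] μ c : Kˣ) : K) • ((ρ y) ^ k) u := by
    intro k u hu c
    obtain ⟨d, rfl⟩ := (θ ^ k).surjective c
    rw [hF, ← map_smul, ← hu d]
    have h1 : ρ (((θ ^ k) d : Z) : G) * ρ y ^ k = ρ y ^ k * ρ (d : G) := by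
      rw [← map_pow ρ y k, ← map_mul, ← map_mul, hθ]
      congr 1
      group
    exact LinearMap.congr_fun h1 u
  have hper : Function.IsPeriodicPt F (2 ^ (e - 1)) μ := by
    show F^[2 ^ (e - 1)] μ = μ
    ext c
    obtain ⟨d, rfl⟩ := (θ ^ 2 ^ (e - 1)).surjective c
    rw [hF]
    congr 2
    apply Subtype.ext
    rw [hθ, hzZ d d.2, mul_inv_cancel_right]
  obtain ⟨s, hs, hms⟩ := (Nat.dvd_prime_pow Nat.prime_two).1 hper.minimalPeriod_dvd
  have hFs : F^[2 ^ s] μ = μ := by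
    rw [← hms]; exact Function.iterate_minimalPeriod
  have hFinj : Set.InjOn (fun i => F^[i] μ) (Set.Iio (2 ^ s)) := by
    rw [← hms]; exact Function.iterate_injOn_Iio_minimalPeriod
  have hW0 : wsp ρ μ ≠ ⊥ := fun h => hv0 (by
    have : v ∈ wsp ρ μ := hv
    rw [h] at this
    exact this)
  have hst : ∀ u ∈ wsp ρ μ, ((ρ y) ^ 2 ^ s) u ∈ wsp ρ μ := by
    intro u hu c
    have h1 := hwt (2 ^ s) u hu c
    rwa [hFs] at h1
  obtain ⟨hse, hY0⟩ := step hy (s := s) (by omega) hW0 hst (by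
    intro u hu h0
    have h1 := weights_indep (ρ.comp Z.subtype) (fun i => F^[i] μ) (2 ^ s) (fun i => ((ρ y) ^ i) u)
      (fun i hi j hj h => hFinj hi hj h) (fun i _ c => hwt i u hu c) h0 0 (Nat.two_pow_pos s)
    simpa using h1)
  have hnt : Nontrivial (wsp ρ μ) := Submodule.nontrivial_iff_ne_bot.2 hW0
  -- the representation of `E`
  have hEinv : ∀ h : E, ∀ u ∈ wsp ρ μ, (ρ.comp E.subtype) h u ∈ wsp ρ μ := by
    intro h u hu c
    show ρ (c : G) (ρ (h : G) u) = _ • ρ (h : G) u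
    rw [← map_smul, ← hu c, ← Module.End.mul_apply, ← Module.End.mul_apply, ← map_mul, ← map_mul,
      hcen c c.2 h (hEQ h.2)]
  let ρE := subRep (ρ.comp E.subtype) (wsp ρ μ) hEinv
  let κ : E → E → K := fun a b => ((μ ⟨⁅(a : G), (b : G)⁆, hcomm a (hEQ a.2) b (hEQ b.2)⟩ : Kˣ) : K)
  have hκ : CommScalar ρE κ := ⟨fun a b => by
    ext u
    show ρ (a : G) (ρ (b : G) (u : V)) = κ a b • ρ (b : G) (ρ (a : G) (u : V))
    have h1 : (a : G) * b = (b * a) * ⁅(a : G)⁻¹, (b : G)⁻¹⁆ := by rw [commutatorElement_def]; group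
    have h2 : (a : G) * b = ⁅(a : G), (b : G)⁆ * (b * a) := by rw [commutatorElement_def]; group
    have h3 := hcomm a (hEQ a.2) b (hEQ b.2)
    have h4 : (a : G) * b = (b * a) * ⁅(a : G), (b : G)⁆ := by
      rw [← hcen _ h3 _ (Q.mul_mem (hEQ b.2) (hEQ a.2))]; exact h2
    rw [← Module.End.mul_apply, ← map_mul, h4, map_mul, Module.End.mul_apply, u.2 ⟨_, h3⟩, map_smul, map_mul,
      Module.End.mul_apply]⟩
  have hrad : hκ.rad = S.subgroupOf E := by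
    ext u
    rw [hκ.mem_rad, Subgroup.mem_subgroupOf, hS]
    constructor
    · intro h
      refine ⟨hEQ u.2, fun b hb hc => ?_⟩
      obtain ⟨r, hr, c, hc1, hcz, rfl⟩ := exists_decomp hQ hq hz hzQ hb
      have h1 : (u : G) * c = c * u := (cent_comm hz hzQ hcen hcomm hzZ hc1 hcz u.2).symm
      have h2 : ⁅(u : G), r * c⁆ = ⁅r, (u : G)⁆⁻¹ := by
        rw [commutatorElement_def, commutatorElement_def, mul_inv_rev]
        have h3 : (u : G) * (r * c) * (u : G)⁻¹ * (c⁻¹ * r⁻¹) = u * r * (c * (u : G)⁻¹ * c⁻¹) * r⁻¹ := by group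
        have h4 : c * (u : G)⁻¹ * c⁻¹ = (u : G)⁻¹ := by
          have h5 : Commute (u : G) c := h1
          rw [← h5.inv_left.eq, mul_inv_cancel_right]
        rw [h3, h4]; group
      have h6 := h ⟨r, hr⟩
      have h7 : (μ ⟨⁅r, (u : G)⁆, hcomm r (hEQ hr) u (hEQ u.2)⟩ : Kˣ) = 1 := Units.ext h6
      have h8 : (⟨⁅(u : G), r * c⁆, hc⟩ : Z) = (⟨⁅r, (u : G)⁆, hcomm r (hEQ hr) u (hEQ u.2)⟩ : Z)⁻¹ :=
        Subtype.ext h2
      rw [h8, map_inv, h7, inv_one]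
    · rintro ⟨-, h⟩ a
      show ((μ ⟨⁅(a : G), (u : G)⁆, _⟩ : Kˣ) : K) = 1
      have h1 := h a (hEQ a.2) (hcomm u (hEQ u.2) a (hEQ a.2))
      have h2 : (⟨⁅(a : G), (u : G)⁆, hcomm a (hEQ a.2) u (hEQ u.2)⟩ : Z) =
          (⟨⁅(u : G), (a : G)⁆, hcomm u (hEQ u.2) a (hEQ a.2)⟩ : Z)⁻¹ :=
        Subtype.ext (commutatorElement_inv _ _).symm
      rw [h2, map_inv, h1, inv_one, Units.val_one]
  have hidx : S.relIndex E = hκ.rad.index := by rw [hrad]; rfl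
  rw [hidx]
  by_cases hne : ∃ h, ρE h ≠ 1
  · -- the operator
    have hsum : s + (e - s) = e := by omega
    have hYa : ((ρ y ^ 2 ^ s).restrict hst) ^ 2 ^ (e - s) = 1 := pow_eq_one hY0
    obtain ⟨Y, hY⟩ : ∃ Y : (Module.End K (wsp ρ μ))ˣ, (Y : Module.End K (wsp ρ μ)) = (ρ y ^ 2 ^ s).restrict hst :=
      IsUnit.of_pow_eq_one hYa (pow_pos (by norm_num) _).ne'
    refine core_dim hEp hq hκ (X := Y) (σ := σ ^ 2 ^ s) ?_ (e := e - s) (by omega) (by rw [hY]; exact hY0) ?_ ?_ hne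
    · intro h
      rw [hY]
      ext u
      show ((ρ y ^ 2 ^ s) (ρ (h : G) (u : V))) = ρ (((σ ^ 2 ^ s) h : E) : G) ((ρ y ^ 2 ^ s) (u : V))
      have h1 : ρ y ^ 2 ^ s * ρ (h : G) = ρ (((σ ^ 2 ^ s) h : E) : G) * ρ y ^ 2 ^ s := by
        rw [hσ, ← map_pow ρ y, ← map_mul, ← map_mul]
        congr 1
        group
      exact LinearMap.congr_fun h1 u
    · rw [← pow_mul, ← pow_add, hsum]
      ext h
      rw [hσ, hye, one_mul, inv_one, mul_one]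
      rfl
    · have hpow : (σ ^ 2 ^ s) ^ 2 ^ (e - s - 1) = σ ^ 2 ^ (e - 1) := by
        rw [← pow_mul, ← pow_add]
        congr 2
        omega
      rw [hpow]
      set H := Subgroup.closure {w : E | ∃ h : E, w = (σ ^ 2 ^ (e - 1)) h * h⁻¹} with hH
      have h1 : E ≤ H.map E.subtype := by
        refine comm_comm hQ hq hz hzQ fun h hh => ?_
        refine ⟨(σ ^ 2 ^ (e - 1)) ⟨h, hh⟩ * ⟨h, hh⟩⁻¹, Subgroup.subset_closure ⟨⟨h, hh⟩, rfl⟩, ?_⟩
        rw [Subgroup.subtype_apply, Subgroup.coe_mul, hσ]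
        rfl
      rw [eq_top_iff]
      rintro ⟨h, hh⟩ -
      obtain ⟨w, hw, e1⟩ := h1 hh
      have : w = ⟨h, hh⟩ := Subtype.ext e1
      rwa [← this]
  · push Not at hne
    left
    rw [Subgroup.index_eq_one, eq_top_iff]
    intro u _ h
    have h1 := hκ.comm h u
    rw [hne, hne, one_mul] at h1
    exact (scal_inj ρE (1 : E) (by rw [map_one, one_smul]; exact h1)).symm

/-- **part C, (E2)** -/
theorem E2 (hq : q ≠ 2) (he : 1 ≤ e) (hy : (ρ y - 1) ^ (2 ^ e - 1) = 0)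
    (hQ : IsPGroup q Q) (hZQ : Z ≤ Q) (hcen : ∀ c ∈ Z, ∀ a ∈ Q, c * a = a * c)
    (hcomm : ∀ a ∈ Q, ∀ b ∈ Q, ⁅a, b⁆ ∈ Z) (hyQ : y ∈ Subgroup.normalizer (Q : Set G))
    (hyZ : y ∈ Subgroup.normalizer (Z : Set G)) (hzZ : ∀ c ∈ Z, y ^ 2 ^ (e - 1) * c = c * y ^ 2 ^ (e - 1))
    (μ : Z →* Kˣ) {v : V} (hv0 : v ≠ 0) (hv : ∀ c : Z, ρ c v = (μ c : K) • v) {S : Subgroup G}
    (hS : ∀ a, a ∈ S ↔ a ∈ Q ∧ ∀ b ∈ Q, ∀ h : ⁅a, b⁆ ∈ Z, μ ⟨⁅a, b⁆, h⟩ = 1) :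
    S.relIndex (⁅Q, Subgroup.zpowers (y ^ 2 ^ (e - 1))⁆ ⊔ S) = 1 ∨
      S.relIndex (⁅Q, Subgroup.zpowers (y ^ 2 ^ (e - 1))⁆ ⊔ S) = q ^ 2 := by
  classical
  let π : G →* G ⧸ ρ.ker := QuotientGroup.mk' ρ.ker
  let ρ' : (G ⧸ ρ.ker) →* Module.End K V := QuotientGroup.lift ρ.ker ρ (fun x hx => hx)
  have hρ' : ∀ g : G, ρ' (π g) = ρ g := fun g => rfl
  have hker : ∀ g : G, π g = 1 ↔ ρ g = 1 := fun g => QuotientGroup.eq_one_iff g
  have hinj : Function.Injective ρ' := by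
    rw [injective_iff_map_eq_one]
    intro x hx
    obtain ⟨g, rfl⟩ := QuotientGroup.mk'_surjective ρ.ker x
    exact (hker g).2 hx
  have hmem : ∀ (H : Subgroup G), y ∈ Subgroup.normalizer (H : Set G) →
      π y ∈ Subgroup.normalizer ((H.map π : Subgroup (G ⧸ ρ.ker)) : Set (G ⧸ ρ.ker)) := by
    intro H hH
    rw [Subgroup.mem_normalizer_iff]
    intro x
    constructor
    · rintro ⟨a, ha, rfl⟩
      exact ⟨y * a * y⁻¹, (Subgroup.mem_normalizer_iff.1 hH a).1 ha, by simp [map_mul]⟩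
    · rintro ⟨a, ha, e1⟩
      refine ⟨y⁻¹ * a * y⁻¹⁻¹, (Subgroup.mem_normalizer_iff.1 (Subgroup.inv_mem _ hH) a).1 ha, ?_⟩
      rw [map_mul, map_mul, e1, inv_inv, map_inv]
      group
  -- the weight
  have hv' : ∀ c : Z.map π, ∃ a : K, ρ' c v = a • v := by
    rintro ⟨_, c, hc, rfl⟩
    exact ⟨_, hv ⟨c, hc⟩⟩
  obtain ⟨μ', hμ'⟩ := exists_hom (ρ'.comp (Z.map π).subtype) hv0 hv'
  have hμμ : ∀ (c : G) (hc : c ∈ Z) (h : π c ∈ Z.map π), μ' ⟨π c, h⟩ = μ ⟨c, hc⟩ := by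
    intro c hc h
    apply Units.ext
    have h1 := hμ' ⟨π c, h⟩
    have h2 := hv ⟨c, hc⟩
    exact smul_left_injective K hv0 (h1.symm.trans h2)
  have hcommπ : ∀ a b : G, ⁅π a, π b⁆ = π ⁅a, b⁆ := fun a b => (map_commutatorElement π a b).symm
  have hS' : ∀ a, a ∈ S.map π ↔ a ∈ Q.map π ∧ ∀ b ∈ Q.map π, ∀ h : ⁅a, b⁆ ∈ Z.map π, μ' ⟨⁅a, b⁆, h⟩ = 1 := by
    intro a'
    constructor
    · rintro ⟨a, ha, rfl⟩
      refine ⟨⟨a, ((hS a).1 ha).1, rfl⟩, ?_⟩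
      rintro _ ⟨b, hb, rfl⟩ h
      have hab := hcomm a ((hS a).1 ha).1 b hb
      have h1 := hμμ ⁅a, b⁆ hab (by rw [← hcommπ]; exact h)
      rw [((hS a).1 ha).2 b hb hab] at h1
      rw [← h1]
      congr 1
    · rintro ⟨⟨a, ha, rfl⟩, h⟩
      refine ⟨a, (hS a).2 ⟨ha, fun b hb hab => ?_⟩, rfl⟩
      have h1 := h (π b) ⟨b, hb, rfl⟩ (by rw [hcommπ]; exact ⟨_, hab, rfl⟩)
      rw [← hμμ ⁅a, b⁆ hab ⟨_, hab, rfl⟩, ← h1]
      congr 1
  have key := E2_faithful ρ' hinj hq he (y := π y) (by rw [hρ']; exact hy) (hQ.map π) (Subgroup.map_mono hZQ)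
    (by
      rintro _ ⟨c, hc, rfl⟩ _ ⟨a, ha, rfl⟩
      rw [← map_mul, hcen c hc a ha, map_mul])
    (by
      rintro _ ⟨a, ha, rfl⟩ _ ⟨b, hb, rfl⟩
      exact ⟨_, hcomm a ha b hb, map_commutatorElement π a b⟩)
    (hmem Q hyQ) (hmem Z hyZ)
    (by
      rintro _ ⟨c, hc, rfl⟩
      rw [← map_pow, ← map_mul, hzZ c hc, map_mul])
    μ' hv0 hμ' hS'
  have hEQ : ⁅Q, Subgroup.zpowers (y ^ 2 ^ (e - 1))⁆ ≤ Q := by
    rw [Subgroup.commutator_le]
    intro a ha g hg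
    have hgN : g ∈ Subgroup.normalizer (Q : Set G) :=
      (Subgroup.zpowers_le.2 (Subgroup.pow_mem _ hyQ _)) hg
    have h1 : ⁅a, g⁆ = a * (g * a⁻¹ * g⁻¹) := by rw [commutatorElement_def]; group
    rw [h1]
    exact Q.mul_mem ha ((Subgroup.mem_normalizer_iff.1 hgN a⁻¹).1 (Q.inv_mem ha))
  have hSQ : S ≤ Q := fun a ha => ((hS a).1 ha).1
  have hL : (⁅Q, Subgroup.zpowers (y ^ 2 ^ (e - 1))⁆ ⊔ S).map π =
      ⁅Q.map π, Subgroup.zpowers ((π y) ^ 2 ^ (e - 1))⁆ ⊔ S.map π := by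
    rw [Subgroup.map_sup, Subgroup.map_commutator, MonoidHom.map_zpowers, map_pow]
  have hrel : (S.map π).relIndex (⁅Q.map π, Subgroup.zpowers ((π y) ^ 2 ^ (e - 1))⁆ ⊔ S.map π) =
      S.relIndex (⁅Q, Subgroup.zpowers (y ^ 2 ^ (e - 1))⁆ ⊔ S) := by
    rw [← hL, ← Subgroup.relIndex_comap]
    set L := ⁅Q, Subgroup.zpowers (y ^ 2 ^ (e - 1))⁆ ⊔ S with hLdef
    have hLQ : L ≤ Q := sup_le hEQ hSQ
    have h1 : (S.map π).comap π ⊓ L = S ⊓ L := by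
      ext x
      constructor
      · rintro ⟨⟨s, hs, e1⟩, hx⟩
        refine ⟨?_, hx⟩
        have hk : s⁻¹ * x ∈ S := by
          refine (hS _).2 ⟨Q.mul_mem (Q.inv_mem (hSQ hs)) (hLQ hx), fun b hb h => ?_⟩
          have h2 : π (s⁻¹ * x) = 1 := by rw [map_mul, map_inv, e1, inv_mul_cancel]
          have h3 : ρ ⁅s⁻¹ * x, b⁆ = 1 := by
            rw [← hker, map_commutatorElement, h2, commutatorElement_one_left]
          have h4 := hv ⟨_, h⟩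
          rw [h3, Module.End.one_apply] at h4
          apply Units.ext
          refine (smul_left_injective K hv0 ?_).symm
          show ((1 : Kˣ) : K) • v = _
          rw [Units.val_one, one_smul]
          exact h4
        have h5 := S.mul_mem hs hk
        rwa [mul_inv_cancel_left] at h5
      · rintro ⟨hx, hx'⟩
        exact ⟨⟨x, hx, rfl⟩, hx'⟩
    rw [← Subgroup.inf_relIndex_right, h1, Subgroup.inf_relIndex_right]
  rw [hrel] at key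
  exact key

end Faithful

end Cfsg.Agent.H557.PartC
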