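import Cfsg.Agent.H557.PartW2
import Cfsg.Agent.H557.E1
import Cfsg.Agent.H557.E2

/-!
# Part W of S4258: the linearization of `Q / Z(Q)`
-/

set_option autoImplicit false
set_option linter.unusedSectionVars false
set_option linter.unusedVariables false

universe u

namespace Cfsg.Agent.H557.PartW

open Module Cfsg.Agent.H552 Cfsg.Agent.H557.PartC
open scoped commutatorElement TensorProduct

/-- preimage in `G` of a subgroup of the model -/
def Model.pre {G : Type u} [Group G] {Q : Subgroup G} {W : Type u} [AddCommGroup W] (M : Model Q W)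
    (A : AddSubgroup W) : Subgroup G where
  carrier := {a | ∃ ha : a ∈ Q, M.π ⟨a, ha⟩ ∈ A}
  one_mem' := ⟨Q.one_mem, by
    have : M.π ⟨1, Q.one_mem⟩ = 0 := M.one
    rw [this]; exact A.zero_mem⟩
  mul_mem' := by
    rintro a b ⟨ha, ha'⟩ ⟨hb, hb'⟩
    refine ⟨Q.mul_mem ha hb, ?_⟩
    have : M.π ⟨a * b, Q.mul_mem ha hb⟩ = M.π ⟨a, ha⟩ + M.π ⟨b, hb⟩ := M.mul ⟨a, ha⟩ ⟨b, hb⟩
    rw [this]
    exact A.add_mem ha' hb'
  inv_mem' := by
    rintro a ⟨ha, ha'⟩
    refine ⟨Q.inv_mem ha, ?_⟩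
    have : M.π ⟨a⁻¹, Q.inv_mem ha⟩ = - M.π ⟨a, ha⟩ := M.inv ⟨a, ha⟩
    rw [this]
    exact A.neg_mem ha'

theorem Model.mem_pre {G : Type u} [Group G] {Q : Subgroup G} {W : Type u} [AddCommGroup W] (M : Model Q W)
    (A : AddSubgroup W) (a : Q) : (a : G) ∈ M.pre A ↔ M.π a ∈ A :=
  ⟨fun ⟨_, h⟩ => h, fun h => ⟨a.2, h⟩⟩

section Main

variable {G : Type u} [Group G] [Finite G] {k : ℕ} {Q R : Subgroup G}

/-- the weights of `Z(Q)` -/
def Wt (Q : Subgroup G) {V : Type u} [AddCommGroup V] [Module (ZMod 2) V] [Finite V]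
    (ρ : G →* Module.End (ZMod 2) V) : Type u :=
  {μ : D1.ZQ Q →* (AlgebraicClosure (ZMod 2))ˣ // ∃ v : (AlgebraicClosure (ZMod 2)) ⊗[ZMod 2] V, v ≠ 0 ∧
    ∀ c : D1.ZQ Q, bc ρ (c : G) v = ((μ c : (AlgebraicClosure (ZMod 2))ˣ) : AlgebraicClosure (ZMod 2)) • v}

variable {V : Type u} [AddCommGroup V] [Module (ZMod 2) V] [Finite V] (ρ : G →* Module.End (ZMod 2) V)
  {W : Type u} [AddCommGroup W] [Finite W] (M : Model Q W) {q : ℕ} [Fact q.Prime] (hq : q ≠ 2)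

theorem odd_ne_two (h : D1 k Q R) (hqQ : IsPGroup q Q) : q ≠ 2 := by
  rintro rfl
  obtain ⟨n, hn⟩ := hqQ.exists_card_eq
  have h1 := h.oddQ
  rw [hn] at h1
  have h2 : n = 0 := by
    by_contra h0
    exact (Nat.not_even_iff_odd.2 h1) ((Nat.even_pow.2 ⟨even_two, h0⟩))
  rw [h2, pow_zero] at hn
  exact h.QneBot (Subgroup.eq_bot_of_card_eq _ hn)

theorem zq_comm (a : G) (ha : a ∈ D1.ZQ Q) (b : G) (hb : b ∈ D1.ZQ Q) : a * b = b * a := (ha.2 b hb.1).symm

include hq in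
/-- an element of `Z(Q)` killed by all weights is trivial -/
theorem eq_one_of_wt (hqQ : IsPGroup q Q) (hρ : ∀ g, ρ g = 1 → g = 1) (c : D1.ZQ Q)
    (hc : ∀ μ : Wt Q ρ, μ.1 c = 1) : c = 1 := by
  by_contra hne
  obtain ⟨μ, hv, hμ⟩ := PartC.W (bc ρ) hq (hqQ.to_le (inf_le_left : D1.ZQ Q ≤ Q)) zq_comm
    (fun a _ h => hρ a (bc_inj ρ h)) c hne
  exact hμ (hc ⟨μ, hv⟩)

include hq in
/-- `y ^ 2 ^ k` centralizes `Z(Q)` -/
theorem z_cent (h : D1 k Q R) (hqQ : IsPGroup q Q) (hρ : ∀ g, ρ g = 1 → g = 1)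
    (hN : ∀ y : G, IsTwo y → (ρ y - 1) ^ (2 ^ (k + 1) - 1) = 0) {y : G} (hy : IsTwo y) {A : Subgroup G}
    (hA : A ≤ Q) (hyA : y ∈ Subgroup.normalizer (A : Set G)) (hcomm : ∀ a ∈ A, ∀ b ∈ A, a * b = b * a) :
    ∀ a ∈ A, y ^ 2 ^ k * a = a * y ^ 2 ^ k := by
  intro a ha
  have := E1Z ρ hq (e := k + 1) (by omega) (hN y hy) (hqQ.to_le hA) hyA hcomm (fun a _ h => hρ a h) a ha
  simpa using this

theorem conj_cm (g : G) [hQn : Q.Normal] (hg : ∀ c ∈ D1.ZQ Q, g * c = c * g) (a b : Q) :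
    cm M (Model.act g a) (Model.act g b) = cm M a b := by
  apply Subtype.ext
  show ⁅g * (a : G) * g⁻¹, g * (b : G) * g⁻¹⁆ = ⁅(a : G), (b : G)⁆
  have h1 : ⁅g * (a : G) * g⁻¹, g * (b : G) * g⁻¹⁆ = g * ⁅(a : G), (b : G)⁆ * g⁻¹ := by
    rw [commutatorElement_def, commutatorElement_def]; group
  rw [h1, hg _ (M.comm a b), mul_inv_cancel_right]

theorem bf_conj [Module (ZMod q) W] (hexp : ∀ w : W, q • w = 0) (g : G) [hQn : Q.Normal]
    (hg : ∀ c ∈ D1.ZQ Q, g * c = c * g) (μ : D1.ZQ Q →* (AlgebraicClosure (ZMod 2))ˣ) (w w' : W) :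
    bf M hq hexp μ (M.sigma (q := q) g w) (M.sigma (q := q) g w') = bf M hq hexp μ w w' := by
  obtain ⟨a, rfl⟩ := M.surj w
  obtain ⟨b, rfl⟩ := M.surj w'
  rw [M.sigma_apply, M.sigma_apply, bf_apply, bf_apply]
  unfold F
  rw [conj_cm M g hg]

/-- the field `faithR` -/
theorem faithR (h : D1 k Q R) (hab : ¬ Q ≤ Subgroup.centralizer (Q : Set G)) [Module (ZMod q) W] [hQn : Q.Normal]
    {r : G} (hr : r ∈ R) (h1 : M.sigma (q := q) r = 1) : r = 1 := by
  have hA : Subgroup.zpowers r ≤ R := Subgroup.zpowers_le.2 hr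
  have hA2 : IsPGroup 2 (Subgroup.zpowers r) := h.hR.to_le hA
  have hnil := hA2.isNilpotent
  have hsol : Group.IsSolvable (Subgroup.zpowers r) := inferInstance
  have h2 : ⁅Q, Subgroup.zpowers r⁆ ≤ D1.ZQ Q := by
    rw [Subgroup.commutator_le]
    rintro a ha s ⟨n, rfl⟩
    have h3 : M.sigma (q := q) (r ^ n) = 1 :=
      (M.sigma (q := q)).ker.zpow_mem (show r ∈ (M.sigma (q := q)).ker from h1) n
    have h4 := congrArg (fun f : Module.End (ZMod q) W => f (M.π ⟨a, ha⟩)) h3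
    simp only [Module.End.one_apply] at h4
    rw [M.sigma_apply, M.eq_iff] at h4
    have h5 : (D1.ZQ Q).Normal := inferInstance
    have h6 := h5.conj_mem _ h4 a
    refine (congrArg (· ∈ D1.ZQ Q) ?_).mp h6
    show a * ((r ^ n * a * (r ^ n)⁻¹)⁻¹ * a) * a⁻¹ = a * r ^ n * a⁻¹ * (r ^ n)⁻¹
    group
  have h3 : ⁅⁅Q, Subgroup.zpowers r⁆, Subgroup.zpowers r⁆ = ⊥ := by
    rw [Subgroup.commutator_eq_bot_iff_le_centralizer, Subgroup.le_centralizer_iff]
    exact hA.trans (h.hRU.trans ((h.U_le_cent_ZQ hab).trans (Subgroup.centralizer_le h2)))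
  have h4 := S0027.result (Subgroup.zpowers r) Q (h.le_normQ _)
    (h.coprime.coprime_dvd_left (Subgroup.card_dvd_of_le hA)) (Or.inl hsol)
  rw [h3] at h4
  have h5 : Q ≤ Subgroup.centralizer (Subgroup.zpowers r : Set G) :=
    Subgroup.commutator_eq_bot_iff_le_centralizer.1 h4.symm
  exact h.propP (isTwo_of_isPGroup h.hR hr) fun a ha => h5 ha r (Subgroup.mem_zpowers r)

/-- the field `fixR` -/
theorem fixR (h : D1 k Q R) [Module (ZMod q) W] [hQn : Q.Normal]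
    (w : W) (hw : ∀ r ∈ R, M.sigma (q := q) r w = w) : w = 0 := by
  obtain ⟨a, rfl⟩ := M.surj w
  have hZn : (D1.ZQ Q).Normal := inferInstance
  let f := QuotientGroup.mk' (D1.ZQ Q)
  have hfs : Function.Surjective f := QuotientGroup.mk'_surjective _
  have : IsMulCommutative (Q.map f) := by
    refine ⟨⟨?_⟩⟩
    rintro ⟨_, a, ha, rfl⟩ ⟨_, b, hb, rfl⟩
    refine Subtype.ext ?_
    show f a * f b = f b * f a
    rw [← commutatorElement_eq_one_iff_mul_comm, ← map_commutatorElement]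
    exact (QuotientGroup.eq_one_iff _).2 (h.comm_QQ_le (Subgroup.commutator_mem_commutator ha hb))
  have h2 := S0055.result (R.map f) (Q.map f) (by
      have : (Q.map f).Normal := hQn.map f hfs
      rw [Subgroup.normalizer_eq_top_iff.2 inferInstance]; exact le_top)
    (Nat.Coprime.of_dvd_left (Subgroup.card_map_dvd R f) <|
      Nat.Coprime.of_dvd_right (Subgroup.card_map_dvd Q f) h.coprime)
  have h3 : ⁅Q.map f, R.map f⁆ = Q.map f := by rw [← Subgroup.map_commutator, h.comm_eq]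
  rw [h3] at h2
  have h4 : f (a : G) ∈ Q.map f ⊓ Subgroup.centralizer (R.map f : Set (G ⧸ D1.ZQ Q)) ⊓ Q.map f := by
    refine ⟨⟨⟨a, a.2, rfl⟩, ?_⟩, ⟨a, a.2, rfl⟩⟩
    rintro _ ⟨r, hr, rfl⟩
    have h5 := hw r hr
    rw [M.sigma_apply, M.eq_iff] at h5
    have h6 : f (r * (a : G) * r⁻¹) = f a := by
      rw [← inv_mul_eq_one, ← map_inv, ← map_mul]
      exact (QuotientGroup.eq_one_iff _).2 h5
    rw [map_mul, map_mul, map_inv, mul_inv_eq_iff_eq_mul] at h6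
    exact h6
  rw [h2.1] at h4
  exact (M.ker a).2 ((QuotientGroup.eq_one_iff _).1 h4)

/-- the field `perm` -/
theorem perm [Module (ZMod q) W] [hQn : Q.Normal] (hexp : ∀ w : W, q • w = 0) (g : G) (μ : Wt Q ρ) :
    ∃ μ' : Wt Q ρ, ∀ w w', bf M hq hexp μ.1 (M.sigma (q := q) g w) (M.sigma (q := q) g w') =
      bf M hq hexp μ'.1 w w' := by
  have hZn : (D1.ZQ Q).Normal := inferInstance
  obtain ⟨μ, v, hv0, hv⟩ := μ
  let cj : D1.ZQ Q →* D1.ZQ Q :=
    { toFun := fun c => ⟨g * c * g⁻¹, hZn.conj_mem c c.2 g⟩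
      map_one' := Subtype.ext (by show g * 1 * g⁻¹ = 1; group)
      map_mul' := fun a b => Subtype.ext (by
        show g * ((a : G) * b) * g⁻¹ = (g * a * g⁻¹) * (g * b * g⁻¹)
        group) }
  refine ⟨⟨μ.comp cj, bc ρ g⁻¹ v, ?_, ?_⟩, ?_⟩
  · intro h
    apply hv0
    have h1 : bc ρ g (bc ρ g⁻¹ v) = v := by
      rw [← Module.End.mul_apply, ← map_mul, mul_inv_cancel, map_one, Module.End.one_apply]
    rw [← h1, h, map_zero]
  · intro c
    have h1 : bc ρ (c : G) (bc ρ g⁻¹ v) = bc ρ g⁻¹ (bc ρ (g * c * g⁻¹) v) := by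
      rw [← Module.End.mul_apply, ← Module.End.mul_apply, ← map_mul, ← map_mul]
      congr 2
      group
    rw [h1]
    have h2 := hv (cj c)
    have h3 : bc ρ (g * c * g⁻¹) v = ((μ (cj c) : (AlgebraicClosure (ZMod 2))ˣ) : AlgebraicClosure (ZMod 2)) • v := h2
    rw [h3, map_smul]
    rfl
  · intro w w'
    obtain ⟨a, rfl⟩ := M.surj w
    obtain ⟨b, rfl⟩ := M.surj w'
    rw [M.sigma_apply, M.sigma_apply, bf_apply, bf_apply]
    unfold F
    have h1 : cm M (Model.act g a) (Model.act g b) = cj (cm M a b) := by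
      apply Subtype.ext
      show ⁅g * (a : G) * g⁻¹, g * (b : G) * g⁻¹⁆ = g * ⁅(a : G), (b : G)⁆ * g⁻¹
      rw [commutatorElement_def, commutatorElement_def]; group
    rw [h1]
    rfl

include hq in
/-- the field `E1` -/
theorem fieldE1 (h : D1 k Q R) (hqQ : IsPGroup q Q) (hρ : ∀ g, ρ g = 1 → g = 1)
    (hN : ∀ y : G, IsTwo y → (ρ y - 1) ^ (2 ^ (k + 1) - 1) = 0)
    [Module (ZMod q) W] [hQn : Q.Normal] (hexp : ∀ w : W, q • w = 0)
    {y : G} (hy : IsTwo y) (A : Submodule (ZMod q) W) (hA : ∀ w ∈ A, M.sigma (q := q) y w ∈ A)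
    (hiso : ∀ w ∈ A, ∀ w' ∈ A, ∀ i : Wt Q ρ, bf M hq hexp i.1 w w' = 0) :
    ∀ w ∈ A, M.sigma (q := q) (y ^ 2 ^ k) w = w := by
  have hyn : ∀ n : ℕ, ∀ w ∈ A, M.sigma (q := q) (y ^ n) w ∈ A := by
    intro n
    induction n with
    | zero => intro w hw; rw [pow_zero, map_one]; exact hw
    | succ n ih =>
      intro w hw
      rw [pow_succ, map_mul]
      exact ih _ (hA w hw)
  have hord : ∃ n : ℕ, y⁻¹ = y ^ n := by
    refine ⟨orderOf y - 1, ?_⟩
    rw [inv_eq_of_mul_eq_one_left]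
    rw [← pow_succ, Nat.sub_add_cancel (orderOf_pos y), pow_orderOf_eq_one]
  have key : ∀ n : ℕ, ∀ a ∈ M.pre A.toAddSubgroup, y ^ n * a * (y ^ n)⁻¹ ∈ M.pre A.toAddSubgroup := by
    rintro n a ⟨ha, ha'⟩
    have h1 := hyn n _ ha'
    rw [M.sigma_apply] at h1
    exact ⟨_, h1⟩
  have hyA : y ∈ Subgroup.normalizer ((M.pre A.toAddSubgroup : Subgroup G) : Set G) := by
    rw [Subgroup.mem_normalizer_iff]
    intro a
    constructor
    · intro ha
      simpa using key 1 a ha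
    · intro ha
      obtain ⟨n, hn⟩ := hord
      have h1 := key n _ ha
      rw [← hn] at h1
      have h2 : y⁻¹ * (y * a * y⁻¹) * y⁻¹⁻¹ = a := by group
      rwa [h2] at h1
  have hcomm : ∀ a ∈ M.pre A.toAddSubgroup, ∀ b ∈ M.pre A.toAddSubgroup, a * b = b * a := by
    rintro a ⟨ha, ha'⟩ b ⟨hb, hb'⟩
    have h1 : cm M ⟨a, ha⟩ ⟨b, hb⟩ = 1 := by
      refine eq_one_of_wt ρ hq hqQ hρ _ fun μ => ?_
      apply F_eq_zero M hq hexp
      rw [← bf_apply M hq hexp]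
      exact hiso _ ha' _ hb' μ
    have h2 : ⁅a, b⁆ = 1 := congrArg Subtype.val h1
    exact commutatorElement_eq_one_iff_mul_comm.1 h2
  have hcz := z_cent ρ hq h hqQ hρ hN hy (A := M.pre A.toAddSubgroup) (fun a ha => ha.1) hyA hcomm
  intro w hw
  obtain ⟨a, rfl⟩ := M.surj w
  rw [M.sigma_apply]
  congr 1
  apply Subtype.ext
  show y ^ 2 ^ k * (a : G) * (y ^ 2 ^ k)⁻¹ = a
  rw [hcz a ⟨a.2, hw⟩, mul_inv_cancel_right]

include hq in
/-- the field `E2` -/
theorem fieldE2 (h : D1 k Q R) (hqQ : IsPGroup q Q) (hρ : ∀ g, ρ g = 1 → g = 1)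
    (hN : ∀ y : G, IsTwo y → (ρ y - 1) ^ (2 ^ (k + 1) - 1) = 0)
    [Module (ZMod q) W] [hQn : Q.Normal] (hexp : ∀ w : W, q • w = 0)
    {y : G} (hy : IsTwo y) (μ : Wt Q ρ) :
    finrank (ZMod q) ((LinearMap.range (M.sigma (q := q) (y ^ 2 ^ k) - 1)).map
      (LinearMap.ker (bf M hq hexp μ.1)).mkQ) ≤ 2 := by
  have hqp : q.Prime := Fact.out
  have hZn : (D1.ZQ Q).Normal := inferInstance
  obtain ⟨μ, v, hv0, hv⟩ := μ
  show finrank (ZMod q) ((LinearMap.range (M.sigma (q := q) (y ^ 2 ^ k) - 1)).map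
      (LinearMap.ker (bf M hq hexp μ)).mkQ) ≤ 2
  set N := LinearMap.ker (bf M hq hexp μ) with hNdef
  let φ : Q →* Multiplicative (W ⧸ N) :=
    { toFun := fun a => Multiplicative.ofAdd (N.mkQ (M.π a))
      map_one' := by rw [M.one, map_zero]; rfl
      map_mul' := fun a b => by rw [M.mul, map_add]; rfl }
  have hφ : ∀ a : Q, a ∈ φ.ker ↔ ∀ b : Q, μ (cm M a b) = 1 := by
    intro a
    have h1 : a ∈ φ.ker ↔ N.mkQ (M.π a) = 0 := Iff.rfl
    rw [h1, Submodule.mkQ_apply, Submodule.Quotient.mk_eq_zero, hNdef, LinearMap.mem_ker]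
    constructor
    · intro h2 b
      apply F_eq_zero M hq hexp
      rw [← bf_apply M hq hexp, h2]
      rfl
    · intro h2
      ext w
      obtain ⟨b, rfl⟩ := M.surj w
      rw [bf_apply]
      unfold F
      rw [h2, lg_one]
      rfl
  let S : Subgroup G := φ.ker.map Q.subtype
  have hS : ∀ a, a ∈ S ↔ a ∈ Q ∧ ∀ b ∈ Q, ∀ h : ⁅a, b⁆ ∈ D1.ZQ Q, μ ⟨⁅a, b⁆, h⟩ = 1 := by
    intro a
    constructor
    · rintro ⟨a, ha, rfl⟩
      exact ⟨a.2, fun b hb _ => (hφ a).1 ha ⟨b, hb⟩⟩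
    · rintro ⟨ha, h2⟩
      exact ⟨⟨a, ha⟩, (hφ _).2 fun b => h2 b b.2 _, rfl⟩
  have hE := PartC.E2 (bc ρ) hq (e := k + 1) (by omega) (bc_pow ρ (hN y hy)) hqQ
    (inf_le_left : D1.ZQ Q ≤ Q) (fun c hc a ha => (hc.2 a ha).symm) (fun a ha b hb => M.comm ⟨a, ha⟩ ⟨b, hb⟩)
    (h.le_normQ ⊤ (Subgroup.mem_top y))
    (by rw [Subgroup.normalizer_eq_top_iff.2 hZn]; exact Subgroup.mem_top y)
    (by
      intro c hc
      have := z_cent ρ hq h hqQ hρ hN hy (A := D1.ZQ Q) inf_le_left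
        (by rw [Subgroup.normalizer_eq_top_iff.2 hZn]; exact Subgroup.mem_top y) zq_comm c hc
      simpa using this)
    μ hv0 hv hS
  rw [Nat.add_sub_cancel] at hE
  set z := y ^ 2 ^ k with hz
  set L := ⁅Q, Subgroup.zpowers z⁆ ⊔ S with hL
  have hSQ : S ≤ Q := fun a ha => ((hS a).1 ha).1
  have hLQ : L ≤ Q := sup_le (Subgroup.le_normalizer_iff_commutator_le_left.1 (h.le_normQ _)) hSQ
  have h1 : (S.comap Q.subtype).relIndex (L.subgroupOf Q) = S.relIndex L := by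
    rw [Subgroup.relIndex_comap, Subgroup.subgroupOf_map_subtype, inf_eq_left.2 hLQ]
  have h2 : S.comap Q.subtype = φ.ker := Subgroup.comap_map_eq_self_of_injective Q.subtype_injective _
  rw [h2, Subgroup.relIndex_ker] at h1
  have h3 : Nat.card ((L.subgroupOf Q).map φ) ≤ q ^ 2 := by
    rw [h1]
    rcases hE with h4 | h4
    · rw [h4]; exact Nat.one_le_pow _ _ hqp.pos
    · rw [h4]
  have hfin0 : Finite (W ⧸ N) := Finite.of_surjective _ N.mkQ_surjective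
  have hfin : Finite (Multiplicative (W ⧸ N)) := hfin0
  have h4 : Nat.card ((LinearMap.range (M.sigma (q := q) z - 1)).map N.mkQ) ≤
      Nat.card ((L.subgroupOf Q).map φ) := by
    have key : ∀ x : ((LinearMap.range (M.sigma (q := q) z - 1)).map N.mkQ),
        Multiplicative.ofAdd x.1 ∈ (L.subgroupOf Q).map φ := by
      rintro ⟨_, _, ⟨w, rfl⟩, rfl⟩
      obtain ⟨a, rfl⟩ := M.surj w
      refine ⟨⟨z * a * z⁻¹ * (a : G)⁻¹, Q.mul_mem (hQn.conj_mem _ a.2 z) (Q.inv_mem a.2)⟩, ?_, ?_⟩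
      · refine Subgroup.mem_sup_left ?_
        rw [Subgroup.commutator_comm]
        exact Subgroup.commutator_mem_commutator (Subgroup.mem_zpowers z) a.2
      · have hw : M.π (Model.act z a * a⁻¹) = (M.sigma (q := q) z - 1) (M.π a) := by
          rw [M.mul, M.inv, LinearMap.sub_apply, M.sigma_apply, Module.End.one_apply, sub_eq_add_neg]
        exact congrArg (fun t => Multiplicative.ofAdd (N.mkQ t)) hw
    refine Nat.card_le_card_of_injective (fun x => ⟨Multiplicative.ofAdd x.1, key x⟩) ?_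
    intro x x' hxx
    apply Subtype.ext
    exact congrArg (fun t : ((L.subgroupOf Q).map φ) => Multiplicative.toAdd t.1) hxx
  have h5 := Module.natCard_eq_pow_finrank (K := ZMod q)
    (V := ((LinearMap.range (M.sigma (q := q) z - 1)).map N.mkQ))
  rw [Nat.card_zmod] at h5
  have h6 := h4.trans h3
  rw [h5] at h6
  exact (Nat.pow_le_pow_iff_right hqp.one_lt).1 h6

/-- **part W** -/
theorem exists_WD {k : ℕ} {Q R : Subgroup G} (h : D1 k Q R)
    (hab : ¬ Q ≤ Subgroup.centralizer (Q : Set G)) {V : Type u} [AddCommGroup V] [Module (ZMod 2) V] [Finite V]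
    (ρ : G →* Module.End (ZMod 2) V) (hρ : ∀ g, ρ g = 1 → g = 1)
    (hN : ∀ y : G, IsTwo y → (ρ y - 1) ^ (2 ^ (k + 1) - 1) = 0) :
    ∃ (q : ℕ) (_ : Fact q.Prime) (W : Type u) (_ : AddCommGroup W) (_ : Module (ZMod q) W) (_ : Finite W)
      (σ : G →* Module.End (ZMod q) W) (ι : Type u) (b : ι → W →ₗ[ZMod q] W →ₗ[ZMod q] ZMod q),
      WD k q Q R σ b := by
  have hQn := h.normalQ
  have hZn := h.normalZQ
  obtain ⟨q, hqp, hqQ⟩ := h.exists_prime
  have : Fact q.Prime := ⟨hqp⟩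
  have hq := odd_ne_two h hqQ
  obtain ⟨W, iW, fW, ⟨M⟩⟩ := exists_model h
  have hexp := M.expq h hab hqQ
  let mW : Module (ZMod q) W := AddCommGroup.zmodModule hexp
  refine ⟨q, inferInstance, W, iW, mW, fW, M.sigma (q := q), Wt Q ρ, fun μ => bf M hq hexp μ.1, ?_⟩
  have hRZ : ∀ r ∈ R, ∀ c ∈ D1.ZQ Q, r * c = c * r := fun r hr c hc =>
    (h.U_le_cent_ZQ hab (h.hRU hr) c hc).symm
  refine ⟨hq, ?_, ?_, ?_, ?_, ?_, ?_, ?_, ?_, ?_, ?_, ?_, ?_, ?_⟩
  · -- nontriv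
    by_contra hcon
    push Not at hcon
    exact hab fun a ha => ((M.ker ⟨a, ha⟩).1 (hcon _)).2
  · -- alt
    intro μ w
    obtain ⟨a, rfl⟩ := M.surj w
    rw [bf_apply, F_self]
  · -- nondeg
    intro w hw
    obtain ⟨a, rfl⟩ := M.surj w
    rw [M.ker]
    refine ⟨a.2, fun b hb => ?_⟩
    have h1 : cm M a ⟨b, hb⟩ = 1 := by
      refine eq_one_of_wt ρ hq hqQ hρ _ fun μ => ?_
      apply F_eq_zero M hq hexp
      rw [← bf_apply M hq hexp]
      exact hw μ _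
    have h2 : ⁅(a : G), b⁆ = 1 := congrArg Subtype.val h1
    exact (commutatorElement_eq_one_iff_mul_comm.1 h2).symm
  · -- trivQ
    intro a ha
    ext w
    obtain ⟨b, rfl⟩ := M.surj w
    rw [M.sigma_apply, Module.End.one_apply, M.eq_iff]
    have h1 := M.comm b⁻¹ ⟨a, ha⟩
    refine (congrArg (· ∈ D1.ZQ Q) ?_).mp ((D1.ZQ Q).mul_mem (M.comm ⟨a, ha⟩ b⁻¹) (Subgroup.one_mem _))
    show ⁅a, (b : G)⁻¹⁆ * 1 = (a * (b : G) * a⁻¹)⁻¹ * b
    rw [commutatorElement_def]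
    group
  · -- faithR
    intro r hr h1
    exact faithR M h hab hr h1
  · -- expo
    intro y hy
    apply hρ
    rw [map_pow]
    exact pow_eq_one (hN y hy)
  · -- invR
    intro r hr μ w w'
    exact bf_conj M hq hexp r (hRZ r hr) μ.1 w w'
  · -- invz
    intro y hy μ w w'
    exact bf_conj M hq hexp _ (z_cent ρ hq h hqQ hρ hN hy (A := D1.ZQ Q) inf_le_left
        (by rw [Subgroup.normalizer_eq_top_iff.2 hZn]; exact Subgroup.mem_top y) zq_comm) μ.1 w w'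
  · -- perm
    intro g μ
    exact perm ρ M hq hexp g μ
  · -- irr
    intro A hA
    rcases M.irr h A.toAddSubgroup (by
      intro g a ha hg
      have h1 := hA g _ ha
      rw [M.sigma_apply] at h1
      exact h1) with h1 | h1
    · left
      refine (Submodule.eq_bot_iff A).2 fun w hw => ?_
      have : w ∈ A.toAddSubgroup := hw
      rw [h1] at this
      exact this
    · right
      refine Submodule.eq_top_iff'.2 fun w => ?_
      have : w ∈ A.toAddSubgroup := by rw [h1]; trivial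
      exact this
  · -- fixR
    intro w hw
    exact fixR M h w hw
  · -- E1
    intro y hy A hA hiso
    exact fieldE1 ρ M hq h hqQ hρ hN hexp hy A hA hiso
  · -- E2
    intro y hy μ
    exact fieldE2 ρ M hq h hqQ hρ hN hexp hy μ

end Main

end Cfsg.Agent.H557.PartW
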