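import Mathlib
import Cfsg.Agent.H557.Free2

/-!
# The regular module lemma (part 9F of S4259)
-/

set_option autoImplicit false
set_option linter.unusedSectionVars false
set_option linter.unusedVariables false

namespace Cfsg.Agent.H557.Free

open Module
open scoped commutatorElement

section

variable {K : Type*} [Field K] {V : Type*} [AddCommGroup V] [Module K V]
  {G : Type*} [Group G] (ρ : G →* Module.End K V) {Z : Subgroup G} (μ : Z →* Kˣ)

/-- the weight space -/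
def wspc : Submodule K V where
  carrier := {v | ∀ c : Z, ρ c v = (μ c : K) • v}
  add_mem' {a b} ha hb c := by rw [map_add, ha, hb, smul_add]
  zero_mem' c := by rw [map_zero, smul_zero]
  smul_mem' a v hv c := by rw [map_smul, hv, smul_comm]

theorem mem_wspc {v : V} : v ∈ wspc ρ μ ↔ ∀ c : Z, ρ c v = (μ c : K) • v := Iff.rfl

theorem cent_mem {g : G} (hg : g ∈ Subgroup.centralizer (Z : Set G)) {v : V}
    (hv : v ∈ wspc ρ μ) : ρ g v ∈ wspc ρ μ := by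
  rw [mem_wspc] at hv ⊢
  intro c
  rw [← Module.End.mul_apply, ← map_mul, hg c c.2, map_mul, Module.End.mul_apply, hv c, map_smul]

/-- the action of the centralizer of `Z` on the weight space -/
noncomputable def theta0 : Subgroup.centralizer (Z : Set G) →* Module.End K (wspc ρ μ) where
  toFun g := (ρ (g : G)).restrict (fun v hv => cent_mem ρ μ g.2 hv)
  map_one' := by
    ext v
    show ρ (1 : G) (v : V) = v
    rw [map_one, Module.End.one_apply]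
  map_mul' := by
    intro a b
    ext v
    show ρ ((a : G) * b) (v : V) = ρ (a : G) (ρ (b : G) v)
    rw [map_mul, Module.End.mul_apply]

noncomputable def theta : Subgroup.centralizer (Z : Set G) →* (Module.End K (wspc ρ μ))ˣ :=
  (theta0 ρ μ).toHomUnits

theorem theta_apply (g : Subgroup.centralizer (Z : Set G)) (v : wspc ρ μ) :
    (((theta ρ μ g : (Module.End K (wspc ρ μ))ˣ) : Module.End K (wspc ρ μ)) v : V) = ρ (g : G) v := rfl

end

/-- **part 9F** -/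
theorem free_lemma {K : Type*} [Field K] [IsAlgClosed K] [CharP K 2] {V : Type*} [AddCommGroup V] [Module K V]
    [FiniteDimensional K V] {G : Type*} [Group G] [Finite G] (ρ : G →* Module.End K V) {q : ℕ} [Fact q.Prime]
    (hq : q ≠ 2) {Q Z B : Subgroup G} (hQ : IsPGroup q Q) (hZQ : Z ≤ Q)
    (hcen : ∀ c ∈ Z, ∀ a ∈ Q, c * a = a * c) (hcomm : ∀ a ∈ Q, ∀ b ∈ Q, ⁅a, b⁆ ∈ Z)
    (hBQ : B ≤ Subgroup.normalizer (Q : Set G)) (hBZ : ∀ b ∈ B, ∀ c ∈ Z, b * c = c * b)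
    (hBab : ∀ a ∈ B, ∀ b ∈ B, a * b = b * a) (hB2 : ∀ b ∈ B, b ^ 2 = 1) (μ : Z →* Kˣ)
    (hμ : ∃ v, v ≠ 0 ∧ ∀ c : Z, ρ c v = (μ c : K) • v)
    (hfaith : ∀ b ∈ B, (∀ a ∈ Q, ∀ a' ∈ Q, ∀ h : ⁅⁅b, a⁆, a'⁆ ∈ Z, μ ⟨⁅⁅b, a⁆, a'⁆, h⟩ = 1) → b = 1)
    [Fintype B] : ∃ v, (∀ c : Z, ρ c v = (μ c : K) • v) ∧ ∑ b : B, ρ b v ≠ 0 := by
  classical
  obtain ⟨v₀, hv₀, hv₀'⟩ := hμ
  have hnt : Nontrivial (wspc ρ μ) := ⟨⟨⟨v₀, hv₀'⟩, 0, fun h => hv₀ (congrArg Subtype.val h)⟩⟩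
  have hQC : Q ≤ Subgroup.centralizer (Z : Set G) := fun a ha c hc => hcen c hc a ha
  have hBC : B ≤ Subgroup.centralizer (Z : Set G) := fun b hb c hc => (hBZ b hb c hc).symm
  set θ := theta ρ μ with hθ
  let P : Subgroup (Module.End K (wspc ρ μ))ˣ := (Q.subgroupOf (Subgroup.centralizer (Z : Set G))).map θ
  have hPmem : ∀ a (ha : a ∈ Q), θ ⟨a, hQC ha⟩ ∈ P := fun a ha => ⟨⟨a, hQC ha⟩, ha, rfl⟩
  have hPex : ∀ p : P, ∃ a, ∃ ha : a ∈ Q, (p : (Module.End K (wspc ρ μ))ˣ) = θ ⟨a, hQC ha⟩ := by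
    rintro ⟨_, ⟨a, ha'⟩, ha, rfl⟩
    exact ⟨a, ha, rfl⟩
  have hscal : ∀ c (hc : c ∈ Z) (h : c ∈ Subgroup.centralizer (Z : Set G)) (v : wspc ρ μ),
      ((θ ⟨c, h⟩ : (Module.End K (wspc ρ μ))ˣ) : Module.End K (wspc ρ μ)) v = (μ ⟨c, hc⟩ : K) • v := by
    intro c hc h v
    apply Subtype.ext
    exact (mem_wspc ρ μ).1 v.2 ⟨c, hc⟩
  let ψ' : B →* (Module.End K (wspc ρ μ))ˣ := θ.comp (Subgroup.inclusion hBC)
  have hψN : ∀ b : B, ψ' b ∈ Subgroup.normalizer (P : Set (Module.End K (wspc ρ μ))ˣ) := by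
    have key : ∀ (b : B), ∀ p ∈ P, ψ' b * p * (ψ' b)⁻¹ ∈ P := by
      rintro b _ ⟨⟨a, ha'⟩, ha, rfl⟩
      have h1 : (b : G) * a * (b : G)⁻¹ ∈ Q := (Subgroup.mem_normalizer_iff.1 (hBQ b.2) a).1 ha
      refine ⟨⟨(b : G) * a * (b : G)⁻¹, hQC h1⟩, h1, ?_⟩
      show θ _ = θ _ * θ _ * (θ _)⁻¹
      rw [← map_inv, ← map_mul, ← map_mul]
      rfl
    intro b
    rw [Subgroup.mem_normalizer_iff]
    intro p
    refine ⟨key b p, fun hp => ?_⟩
    have h1 := key b⁻¹ _ hp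
    rw [map_inv] at h1
    have h2 : (ψ' b)⁻¹ * (ψ' b * p * (ψ' b)⁻¹) * ((ψ' b)⁻¹)⁻¹ = p := by group
    rwa [h2] at h1
  let act : B →* MulAut P := (Subgroup.normalizerMonoidHom P).comp (ψ'.codRestrict _ hψN)
  have hact : ∀ (b : B) (p : P), ((act b p : P) : (Module.End K (wspc ρ μ))ˣ) = ψ' b * p * (ψ' b)⁻¹ :=
    fun b p => rfl
  -- commutators are scalar
  have hsc : ∀ p p' : P, ∃ t : K, ∀ v, (((⁅p, p'⁆ : P) : (Module.End K (wspc ρ μ))ˣ) : Module.End K (wspc ρ μ)) v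
      = t • v := by
    intro p p'
    obtain ⟨a, ha, h1⟩ := hPex p
    obtain ⟨a', ha', h2⟩ := hPex p'
    refine ⟨μ ⟨⁅a, a'⁆, hcomm a ha a' ha'⟩, fun v => ?_⟩
    have h3 : ((⁅p, p'⁆ : P) : (Module.End K (wspc ρ μ))ˣ) =
        θ ⁅(⟨a, hQC ha⟩ : Subgroup.centralizer (Z : Set G)), (⟨a', hQC ha'⟩ : Subgroup.centralizer (Z : Set G))⁆ := by
      rw [map_commutatorElement, ← h1, ← h2]
      rfl
    rw [h3]
    exact hscal ⁅a, a'⁆ (hcomm a ha a' ha') _ v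
  have hcenU : ∀ (p p' : P) (x : (Module.End K (wspc ρ μ))ˣ),
      ((⁅p, p'⁆ : P) : (Module.End K (wspc ρ μ))ˣ) * x = x * ((⁅p, p'⁆ : P) : (Module.End K (wspc ρ μ))ˣ) := by
    intro p p' x
    obtain ⟨t, ht⟩ := hsc p p'
    apply Units.ext
    ext1 v
    rw [Units.val_mul, Units.val_mul, Module.End.mul_apply, Module.End.mul_apply, ht, ht, map_smul]
  let ρ' : P →* Module.End K (wspc ρ μ) := (Units.coeHom _).comp P.subtype
  have hPq : IsPGroup q P := (hQ.of_equiv (Subgroup.subgroupOfEquivOfLe hQC).symm).map θ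
  obtain ⟨w, hw⟩ := free_core (V := wspc ρ μ) act (fun p => by
      obtain ⟨n, hn⟩ := hPq p
      exact (((Fact.out : q.Prime).odd_of_ne_two hq).pow).of_dvd_nat (orderOf_dvd_of_pow_eq_one hn))
    (fun p p' c => Subtype.ext (hcenU p p' c))
    (fun b p p' => Subtype.ext (by rw [hact, ← hcenU, mul_inv_cancel_right]))
    (fun b => Subtype.ext (by
      show (b : G) * b = 1
      rw [← pow_two]; exact hB2 b b.2))
    ρ' ((Units.coeHom _).comp ψ')
    (fun b p v => by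
      show ((ψ' b : (Module.End K (wspc ρ μ))ˣ) : Module.End K (wspc ρ μ))
          (((p : (Module.End K (wspc ρ μ))ˣ) : Module.End K (wspc ρ μ)) v) =
        (((act b p : P) : (Module.End K (wspc ρ μ))ˣ) : Module.End K (wspc ρ μ))
          (((ψ' b : (Module.End K (wspc ρ μ))ˣ) : Module.End K (wspc ρ μ)) v)
      rw [hact, ← Module.End.mul_apply, ← Module.End.mul_apply, ← Units.val_mul, ← Units.val_mul,
        inv_mul_cancel_right])
    hsc
    (fun p p' h => Subtype.ext (Units.ext h))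
    (fun b h => by
      apply Subtype.ext
      apply hfaith b b.2
      intro a ha a' ha' hZ
      have hba : ⁅(b : G), a⁆ ∈ Q := by
        have h1 : (b : G) * a * (b : G)⁻¹ ∈ Q := (Subgroup.mem_normalizer_iff.1 (hBQ b.2) a).1 ha
        exact Q.mul_mem h1 (Q.inv_mem ha)
      have h1 := h ⟨_, hPmem a ha⟩ ⟨_, hPmem a' ha'⟩
      have h2 : θ ⁅⁅(⟨b, hBC b.2⟩ : Subgroup.centralizer (Z : Set G)),
          (⟨a, hQC ha⟩ : Subgroup.centralizer (Z : Set G))⁆,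
          (⟨a', hQC ha'⟩ : Subgroup.centralizer (Z : Set G))⁆ = 1 := by
        rw [map_commutatorElement, map_commutatorElement]
        exact congrArg Subtype.val h1
      have h3 := hscal ⁅⁅(b : G), a⁆, a'⁆ hZ (hQC (hZQ hZ)) ⟨v₀, hv₀'⟩
      have h4 : θ ⟨⁅⁅(b : G), a⁆, a'⁆, hQC (hZQ hZ)⟩ = 1 := h2
      rw [h4, Units.val_one, Module.End.one_apply] at h3
      apply Units.ext
      rw [Units.val_one]
      have h5 : (1 : K) • v₀ = (μ ⟨⁅⁅(b : G), a⁆, a'⁆, hZ⟩ : K) • v₀ := by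
        rw [one_smul]
        exact congrArg Subtype.val h3
      exact (smul_left_injective K hv₀ h5).symm)
  refine ⟨w, (mem_wspc ρ μ).1 w.2, fun h => hw ?_⟩
  apply Subtype.ext
  rw [Submodule.coe_sum]
  exact h

end Cfsg.Agent.H557.Free
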