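import Mathlib
import Cfsg.Agent.PLocal.HHBClifford
import Cfsg.Agent.PLocal.HHBUnip
import Cfsg.Agent.H552.Series

/-!
helper557: part S of the proof of S4258 (helper552).

* `clifford_ss` : the restriction of an irreducible representation to a normal subgroup is semisimple;
* `mem_range` : vectors orthogonal to the fixed space of `z` for an invariant form are in the image of `z - 1`;
* `partS`.
-/

set_option autoImplicit false
set_option linter.unusedSectionVars false

namespace Cfsg.Agent.H557.PartS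

open Module Cfsg.Agent.PLocal.HHBClifford

/-! ### Clifford -/

section Clifford

variable {K : Type*} [Field K] {V : Type*} [AddCommGroup V] [Module K V] {X : Type*} [Group X]
  (ρ : X →* Module.End K V)

/-- the unit `ρ g` -/
def un (g : X) : (Module.End K V)ˣ :=
  ⟨ρ g, ρ g⁻¹, by rw [← map_mul, mul_inv_cancel, map_one], by rw [← map_mul, inv_mul_cancel, map_one]⟩

theorem nrm (D : Subgroup X) [D.Normal] (g : X) : Nrm (alg (ρ.comp D.subtype)) (un ρ g) :=
  nrm_alg (σ := MulAut.conjNormal g) fun h => by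
    show ρ g * ρ (h : X) = ρ ((MulAut.conjNormal g h : D) : X) * ρ g
    rw [MulAut.conjNormal_apply, ← map_mul, ← map_mul]
    congr 1
    group

/-- **Clifford's theorem** -/
theorem clifford_ss [FiniteDimensional K V]
    (hirr : ∀ S : Submodule K V, (∀ g, ∀ m ∈ S, ρ g m ∈ S) → S = ⊥ ∨ S = ⊤) (D : Subgroup X) [D.Normal] :
    IsSemisimpleModule (alg (ρ.comp D.subtype)) V := by
  rcases subsingleton_or_nontrivial V with hV | hV
  · infer_instance
  have hart : IsArtinian (alg (ρ.comp D.subtype)) V := isArtinian_of_tower K inferInstance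
  obtain ⟨S, hS, -⟩ := (IsAtomic.eq_bot_or_exists_atom_le (⊤ : Submodule (alg (ρ.comp D.subtype)) V)).resolve_left
    top_ne_bot
  have hSs : IsSimpleModule (alg (ρ.comp D.subtype)) S := isSimpleModule_iff_isAtom.2 hS
  let T : Submodule (alg (ρ.comp D.subtype)) V := ⨆ g : X, tw (nrm ρ D g) S
  have hT : T = ⊤ := by
    have h1 : ∀ g, ∀ m ∈ T.restrictScalars K, ρ g m ∈ T.restrictScalars K := by
      intro g m hm
      have hm' : m ∈ T := hm
      show ρ g m ∈ T
      refine Submodule.iSup_induction _ (motive := fun m => ρ g m ∈ T) hm' ?_ ?_ ?_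
      · intro h m hm
        refine Submodule.mem_iSup_of_mem (g * h) ?_
        rw [mem_tw] at hm ⊢
        show ρ (g * h)⁻¹ (ρ g m) ∈ S
        have h2 : ρ (g * h)⁻¹ (ρ g m) = ρ h⁻¹ m := by
          rw [← Module.End.mul_apply, ← map_mul]
          congr 2
          group
        rw [h2]
        exact hm
      · rw [map_zero]; exact T.zero_mem
      · intro a b ha hb
        rw [map_add]; exact T.add_mem ha hb
    rcases hirr (T.restrictScalars K) h1 with h2 | h2
    · exfalso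
      apply hS.1
      rw [Submodule.eq_bot_iff]
      intro s hs
      have h3 : s ∈ T := by
        refine Submodule.mem_iSup_of_mem 1 ?_
        rw [mem_tw]
        show ρ (1 : X)⁻¹ s ∈ S
        rw [inv_one, map_one]
        exact hs
      have h4 : s ∈ T.restrictScalars K := h3
      rw [h2] at h4
      exact h4
    · rw [eq_top_iff]
      intro v _
      have h3 : v ∈ T.restrictScalars K := by rw [h2]; trivial
      exact h3
  exact isSemisimpleModule_of_isSemisimpleModule_submodule' (p := fun g : X => tw (nrm ρ D g) S)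
    (fun g => by
      have := isSimple_tw (nrm ρ D g) hSs
      infer_instance) hT

end Clifford

/-! ### the form -/

section Form

variable {K : Type*} [Field K] {V : Type*} [AddCommGroup V] [Module K V] [FiniteDimensional K V]
  (A : Subalgebra K (Module.End K V)) [IsSemisimpleModule A V] (z : Module.End K V) (hz : z ∈ A)

/-- `v` is in `R + (z - 1) V` -/
def Good (z : Module.End K V) (v : V) (R : Submodule A V) : Prop := ∃ r ∈ R, ∃ a : V, v = r + (z a - a)

include hz in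
theorem good_inf {v : V} {R₁ R₂ : Submodule A V} (h₁ : Good A z v R₁) (h₂ : Good A z v R₂) :
    Good A z v (R₁ ⊓ R₂) := by
  obtain ⟨C₀, hC₀⟩ := exists_isCompl (R₁ ⊓ R₂)
  have hR₁ : R₁ = (R₁ ⊓ R₂) ⊔ (C₀ ⊓ R₁) := by
    rw [← sup_inf_assoc_of_le C₀ (inf_le_left : R₁ ⊓ R₂ ≤ R₁), hC₀.sup_eq_top, top_inf_eq]
  have hdisj : Disjoint R₂ (C₀ ⊓ R₁) := by
    rw [disjoint_iff, ← hC₀.inf_eq_bot]
    ext w
    simp only [Submodule.mem_inf]
    tauto
  obtain ⟨D₀, hD₀⟩ := exists_isCompl (R₂ ⊔ (C₀ ⊓ R₁))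
  have hcompl : IsCompl ((C₀ ⊓ R₁) ⊔ D₀) R₂ := by
    refine IsCompl.symm ⟨hdisj.disjoint_sup_right_of_disjoint_sup_left hD₀.disjoint, ?_⟩
    rw [codisjoint_iff, ← sup_assoc, hD₀.sup_eq_top]
  obtain ⟨π, hπl, hπr⟩ : ∃ π : V →ₗ[A] V, (∀ w ∈ (C₀ ⊓ R₁) ⊔ D₀, π w = w) ∧ ∀ w ∈ R₂, π w = 0 :=
    ⟨Submodule.projection _ _ hcompl, fun w hw => Submodule.projection_apply_of_mem_left hcompl hw,
      fun w hw => Submodule.projection_apply_of_mem_right hcompl hw⟩
  have hπz : ∀ a : V, π (z a) = z (π a) := fun a => π.map_smul (⟨z, hz⟩ : A) a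
  obtain ⟨r₁, hr₁, a, ha⟩ := h₁
  obtain ⟨r₂, hr₂, b, hb⟩ := h₂
  rw [hR₁] at hr₁
  obtain ⟨s, hs, c, hc, rfl⟩ := Submodule.mem_sup.1 hr₁
  have hπs : π s = 0 := hπr s hs.2
  have hπr2 : π r₂ = 0 := hπr r₂ hr₂
  have hπc : π c = c := hπl c ((le_sup_left : C₀ ⊓ R₁ ≤ _) hc)
  have e1 : π v = c + (z (π a) - π a) := by
    rw [ha, map_add, map_add, map_sub, hπs, zero_add, hπz, hπc]
  have e2 : π v = z (π b) - π b := by
    rw [hb, map_add, map_sub, hπr2, zero_add, hπz]
  refine ⟨s, hs, π b - π a + a, ?_⟩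
  rw [e2] at e1
  have e3 : c = z (π b) - π b - (z (π a) - π a) := by rw [e1]; abel
  rw [ha, map_add, map_sub]
  nth_rewrite 1 [e3]
  abel

variable {Z : Type*} [AddCommGroup Z] [Module K Z] (B : V →ₗ[K] V →ₗ[K] Z) (halt : ∀ m, B m m = 0)
  (hinv : ∀ m m', B (z m) (z m') = B m m') (hsurj : Function.Surjective z)

include halt in
theorem skew (m m' : V) : B m m' = -B m' m := by
  have h := halt (m + m')
  simp only [map_add, LinearMap.add_apply, halt, zero_add, add_zero] at h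
  first
    | exact eq_neg_of_add_eq_zero_left h
    | exact eq_neg_of_add_eq_zero_right h

include hz halt hinv hsurj in
theorem good_rad (f : Z →ₗ[K] K) {R : Submodule A V} (hR : ∀ d, d ∈ R ↔ ∀ a, f (B a d) = 0) {v : V}
    (hv : ∀ c, z c = c → B v c = 0) : Good A z v R := by
  have hR' : ∀ d ∈ R, ∀ a, f (B d a) = 0 := by
    intro d hd a
    rw [skew B halt, map_neg, (hR d).1 hd, neg_zero]
  obtain ⟨C, hC⟩ := exists_isCompl R
  obtain ⟨r, hr, c, hc, rfl⟩ : ∃ r ∈ R, ∃ c ∈ C, r + c = v := by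
    have h1 : v ∈ R ⊔ C := by rw [hC.sup_eq_top]; trivial
    exact Submodule.mem_sup.1 h1
  suffices h : c ∈ LinearMap.range (z - 1) by
    obtain ⟨a, ha⟩ := h
    refine ⟨r, hr, a, ?_⟩
    rw [← ha]; rfl
  by_contra hcon
  obtain ⟨φ, hφc, hφ⟩ : ∃ φ : Module.Dual K V, φ c ≠ 0 ∧ (LinearMap.range (z - 1)).map φ = ⊥ :=
    Submodule.exists_dual_map_eq_bot_of_notMem hcon inferInstance
  have hφz : ∀ a, φ (z a) = φ a := by
    intro a
    have h1 : φ (z a - a) ∈ (LinearMap.range (z - 1)).map φ := ⟨z a - a, ⟨a, rfl⟩, rfl⟩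
    rw [hφ, Submodule.mem_bot, map_sub] at h1
    exact sub_eq_zero.1 h1
  -- the form on `C`
  let C' : Submodule K V := C.restrictScalars K
  let β : C' →ₗ[K] Module.Dual K C' :=
    LinearMap.mk₂ K (fun d a : C' => f (B (a : V) (d : V)))
      (fun d₁ d₂ a => by rw [Submodule.coe_add, map_add, map_add])
      (fun k d a => by rw [Submodule.coe_smul, map_smul, map_smul])
      (fun d a₁ a₂ => by rw [Submodule.coe_add, map_add, LinearMap.add_apply, map_add])
      (fun k d a => by rw [Submodule.coe_smul, map_smul, LinearMap.smul_apply, map_smul])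
  have hβ : ∀ d a : C', β d a = f (B (a : V) (d : V)) := fun d a => rfl
  have hzero : ∀ d ∈ C, (∀ a ∈ C, f (B a d) = 0) → d = 0 := by
    intro d hd h
    have h1 : d ∈ R := by
      refine (hR d).2 fun a => ?_
      obtain ⟨r', hr', c', hc', rfl⟩ : ∃ r' ∈ R, ∃ c' ∈ C, r' + c' = a := by
        have h1 : a ∈ R ⊔ C := by rw [hC.sup_eq_top]; trivial
        exact Submodule.mem_sup.1 h1
      rw [map_add, LinearMap.add_apply, map_add, hR' r' hr', h c' hc', zero_add]
    have h2 : d ∈ R ⊓ C := ⟨h1, hd⟩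
    rw [hC.inf_eq_bot] at h2
    exact h2
  have hβinj : Function.Injective β := by
    rw [← LinearMap.ker_eq_bot, LinearMap.ker_eq_bot']
    rintro ⟨d, hd⟩ h
    exact Subtype.ext (hzero d hd fun a ha => LinearMap.congr_fun h ⟨a, ha⟩)
  have hβsurj : Function.Surjective β :=
    (LinearMap.injective_iff_surjective_of_finrank_eq_finrank (Subspace.dual_finrank_eq).symm).1 hβinj
  obtain ⟨⟨d, hd⟩, hdφ⟩ := hβsurj (φ.comp C'.subtype)
  have hd' : ∀ a ∈ C, f (B a d) = φ a := fun a ha => LinearMap.congr_fun hdφ ⟨a, ha⟩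
  have hzC : ∀ a ∈ C, z a ∈ C := fun a ha => C.smul_mem (⟨z, hz⟩ : A) ha
  have hzCs : ∀ a ∈ C, ∃ b ∈ C, z b = a := by
    have hinjz : Function.Injective (z.restrict (p := C') (q := C') hzC) := by
      have h1 : Function.Injective z := LinearMap.injective_iff_surjective.2 hsurj
      intro a b hab
      exact Subtype.ext (h1 (congrArg Subtype.val hab))
    intro a ha
    obtain ⟨⟨b, hb⟩, e⟩ := LinearMap.injective_iff_surjective.1 hinjz ⟨a, ha⟩
    exact ⟨b, hb, congrArg Subtype.val e⟩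
  have hdz : z d = d := by
    have h1 : z d - d ∈ C := C.sub_mem (hzC d hd) hd
    refine sub_eq_zero.1 (hzero _ h1 fun a ha => ?_)
    obtain ⟨b, hb, rfl⟩ := hzCs a ha
    rw [map_sub, hinv, map_sub, hd' b hb, hd' (z b) (hzC b hb), hφz, sub_self]
  have h1 := hv d hdz
  rw [map_add, LinearMap.add_apply] at h1
  have h2 := congrArg f h1
  rw [map_add, map_zero, hR' r hr, zero_add, hd' c hc] at h2
  exact hφc h2

include hz halt hinv hsurj in
theorem mem_range (hA : ∀ f : Z →ₗ[K] K, ∃ R : Submodule A V, ∀ d, d ∈ R ↔ ∀ a, f (B a d) = 0)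
    (hrad : ∀ m, (∀ m', B m m' = 0) → m = 0) {v : V} (hv : ∀ c, z c = c → B v c = 0) :
    ∃ a, v = z a - a := by
  have hart : IsArtinian A V := isArtinian_of_tower K inferInstance
  let P : Set (Submodule A V) := {R | Good A z v R}
  have hP : P.Nonempty := ⟨⊤, v, trivial, 0, by rw [map_zero, sub_zero, add_zero]⟩
  obtain ⟨R₀, hR₀, hmin⟩ := WellFounded.has_min (wellFounded_lt (α := Submodule A V)) P hP
  have hle : ∀ R, Good A z v R → R₀ ≤ R := by
    intro R hR
    have h1 := good_inf A z hz hR₀ hR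
    have h2 := hmin _ h1
    have h3 : R₀ ⊓ R = R₀ := by
      by_contra hne
      exact h2 (lt_of_le_of_ne inf_le_left hne)
    exact inf_eq_left.1 h3
  have hbot : ∀ d ∈ R₀, d = 0 := by
    intro d hd
    apply hrad
    intro a
    by_contra hne
    obtain ⟨f, hf⟩ : ∃ f : Module.Dual K Z, f (B d a) ≠ 0 := by
      by_contra hcon
      push Not at hcon
      exact hne ((Module.forall_dual_apply_eq_zero_iff K _).1 hcon)
    obtain ⟨R, hR⟩ := hA f
    have h1 := (hR d).1 (hle R (good_rad A z hz B halt hinv hsurj f hR hv) hd) a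
    apply hf
    rw [skew B halt, map_neg, h1, neg_zero]
  obtain ⟨r, hr, a, ha⟩ := hR₀
  exact ⟨a, by rw [ha, hbot r hr, zero_add]⟩

end Form

/-! ### part S -/

section Main

variable {K : Type*} [Field K] [CharP K 2] {X : Type*} [Group X] [Finite X] {M : Type*} [AddCommGroup M]
  [Module K M] [FiniteDimensional K M] (ρ : X →* Module.End K M)

theorem partS' (hirr : ∀ S : Submodule K M, (∀ g, ∀ m ∈ S, ρ g m ∈ S) → S = ⊥ ∨ S = ⊤)
    {Z : Type*} [AddCommGroup Z] [Module K Z] (B : M →ₗ[K] M →ₗ[K] Z) (halt : ∀ m, B m m = 0)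
    (hrad : ∀ m, (∀ m', B m m' = 0) → m = 0) (x : X) (hx : Cfsg.Agent.H552.IsTwo x) (k : ℕ)
    (hinv : ∀ g : X, ∀ m m', B (ρ (g * x ^ 2 ^ k * g⁻¹) m) (ρ (g * x ^ 2 ^ k * g⁻¹) m') = B m m')
    (horth : ∀ m c, ρ (x ^ 2 ^ k) c = c → B ((∑ i ∈ Finset.range (2 ^ k), ρ x ^ i) m) c = 0) :
    ∑ i ∈ Finset.range (2 ^ k), ρ x ^ i = 0 := by
  have : Fact (Nat.Prime 2) := ⟨Nat.prime_two⟩
  let D : Subgroup X := Subgroup.normalClosure {x ^ 2 ^ k}
  have hDn : D.Normal := Subgroup.normalClosure_normal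
  have hss := clifford_ss ρ hirr D
  have hzD : x ^ 2 ^ k ∈ D := Subgroup.subset_normalClosure rfl
  -- the form is invariant under `D`
  have hD : ∀ d ∈ D, ∀ m m', B (ρ d m) (ρ d m') = B m m' := by
    let J : Subgroup X :=
      { carrier := {d | ∀ m m', B (ρ d m) (ρ d m') = B m m'}
        one_mem' := fun m m' => by rw [map_one]; rfl
        mul_mem' := fun {a b} ha hb m m' => by
          rw [map_mul, Module.End.mul_apply, Module.End.mul_apply, ha, hb]
        inv_mem' := fun {a} ha m m' => by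
          have h1 := ha (ρ a⁻¹ m) (ρ a⁻¹ m')
          have h2 : ∀ m, ρ a (ρ a⁻¹ m) = m := fun m => by
            rw [← Module.End.mul_apply, ← map_mul, mul_inv_cancel, map_one, Module.End.one_apply]
          rw [h2, h2] at h1
          exact h1.symm }
    have h1 : D ≤ J := by
      show Subgroup.closure (Group.conjugatesOfSet {x ^ 2 ^ k}) ≤ J
      rw [Subgroup.closure_le]
      intro d hd
      obtain ⟨w, hw, hwd⟩ := Group.mem_conjugatesOfSet_iff.1 hd
      obtain rfl := Set.mem_singleton_iff.1 hw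
      obtain ⟨g, rfl⟩ := isConj_iff.1 hwd
      exact hinv g
    exact h1
  have hA : ∀ f : Z →ₗ[K] K, ∃ R : Submodule (alg (ρ.comp D.subtype)) M, ∀ d, d ∈ R ↔ ∀ a, f (B a d) = 0 := by
    intro f
    let S : Submodule K M :=
      { carrier := {d | ∀ a, f (B a d) = 0}
        add_mem' := fun {a b} ha hb c => by rw [map_add, map_add, ha, hb, add_zero]
        zero_mem' := fun c => by rw [map_zero, map_zero]
        smul_mem' := fun c d hd a => by rw [map_smul, map_smul, hd, smul_zero] }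
    refine ⟨toSub (ρ.comp D.subtype) S fun h u hu a => ?_, fun d => Iff.rfl⟩
    have h1 := hu (ρ (h : X)⁻¹ a)
    rw [← hD h h.2] at h1
    have h2 : ρ (h : X) (ρ (h : X)⁻¹ a) = a := by
      rw [← Module.End.mul_apply, ← map_mul, mul_inv_cancel, map_one, Module.End.one_apply]
    rw [h2] at h1
    exact h1
  have hsurj : Function.Surjective (ρ (x ^ 2 ^ k)) := fun a => ⟨ρ (x ^ 2 ^ k)⁻¹ a, by
    rw [← Module.End.mul_apply, ← map_mul, mul_inv_cancel, map_one, Module.End.one_apply]⟩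
  set N : Module.End K M := ∑ i ∈ Finset.range (2 ^ k), ρ x ^ i with hN
  have key : ∀ m, ∃ a, N m = ρ (x ^ 2 ^ k) a - a := fun m =>
    mem_range (alg (ρ.comp D.subtype)) (ρ (x ^ 2 ^ k)) (rho_mem_alg (ρ.comp D.subtype) ⟨_, hzD⟩) B halt
      (hD _ hzD) hsurj hA hrad (horth m)
  rcases subsingleton_or_nontrivial M with hM | hM
  · exact Subsingleton.elim _ _
  have : CharP (Module.End K M) 2 := charP_of_injective_algebraMap (algebraMap K (Module.End K M)).injective 2
  have hN1 : N = (ρ x - 1) ^ (2 ^ k - 1) := by rw [hN, Cfsg.Agent.PLocal.HHBUnip.geom_eq K 2]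
  have hz1 : ρ (x ^ 2 ^ k) - 1 = (ρ x - 1) * N := by
    rw [hN1, ← pow_succ', Nat.sub_add_cancel Nat.one_le_two_pow,
      sub_pow_char_pow_of_commute _ _ (Commute.one_right _), one_pow, map_pow]
  have key2 : ∀ m, ∃ a, N m = (ρ x - 1) (N a) := by
    intro m
    obtain ⟨a, ha⟩ := key m
    refine ⟨a, ?_⟩
    rw [ha, ← Module.End.mul_apply, ← hz1]
    rfl
  have key3 : ∀ j : ℕ, ∀ m, ∃ a, N m = ((ρ x - 1) ^ j) (N a) := by
    intro j
    induction j with
    | zero => intro m; exact ⟨m, by simp⟩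
    | succ j ih =>
      intro m
      obtain ⟨a, ha⟩ := ih m
      obtain ⟨b, hb⟩ := key2 a
      exact ⟨b, by rw [ha, hb, pow_succ, Module.End.mul_apply]⟩
  obtain ⟨t, ht⟩ := hx
  have hnil : (ρ x - 1) ^ 2 ^ t = 0 := by
    rw [sub_pow_char_pow_of_commute _ _ (Commute.one_right _), one_pow, ← map_pow, ht, map_one, sub_self]
  ext m
  obtain ⟨a, ha⟩ := key3 (2 ^ t) m
  rw [ha, hnil]
  rfl

end Main

/-- **part S** -/
theorem partS {X : Type*} [Group X] [Finite X] {M : Type*} [AddCommGroup M] [Module (ZMod 2) M] [Finite M]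
    (ρ : X →* Module.End (ZMod 2) M)
    (hirr : ∀ S : Submodule (ZMod 2) M, (∀ g, ∀ m ∈ S, ρ g m ∈ S) → S = ⊥ ∨ S = ⊤)
    {Z : Type*} [AddCommGroup Z] [Module (ZMod 2) Z] (B : M →ₗ[ZMod 2] M →ₗ[ZMod 2] Z) (halt : ∀ m, B m m = 0)
    (hrad : ∀ m, (∀ m', B m m' = 0) → m = 0) (x : X) (hx : Cfsg.Agent.H552.IsTwo x) (k : ℕ)
    (hinv : ∀ g : X, ∀ m m', B (ρ (g * x ^ 2 ^ k * g⁻¹) m) (ρ (g * x ^ 2 ^ k * g⁻¹) m') = B m m')
    (horth : ∀ m c, ρ (x ^ 2 ^ k) c = c → B ((∑ i ∈ Finset.range (2 ^ k), ρ x ^ i) m) c = 0) :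
    ∑ i ∈ Finset.range (2 ^ k), ρ x ^ i = 0 :=
  partS' ρ hirr B halt hrad x hx k hinv horth

end Cfsg.Agent.H557.PartS
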