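import Cfsg.Agent.H552.WData
import Cfsg.Agent.H557.E1
import Cfsg.Agent.H557.E2

/-!
# Part W of S4258: the linearization of `Q / Z(Q)` (first part, the model)
-/

set_option autoImplicit false
set_option linter.unusedSectionVars false
set_option linter.unusedVariables false

universe u

namespace Cfsg.Agent.H557.PartW

open Module Cfsg.Agent.H552 Cfsg.Agent.H557.PartC
open scoped commutatorElement

/-- a discrete logarithm -/
theorem exists_log (q : ℕ) [Fact q.Prime] (hq : q ≠ 2) :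
    ∃ l : (AlgebraicClosure (ZMod 2))ˣ → ZMod q,
      (∀ x y, x ^ q = 1 → y ^ q = 1 → l (x * y) = l x + l y) ∧ ∀ x, x ^ q = 1 → l x = 0 → x = 1 := by
  classical
  have hn : NeZero ((q : ℕ) : AlgebraicClosure (ZMod 2)) := by
    refine ⟨fun h => ?_⟩
    have : CharP (AlgebraicClosure (ZMod 2)) 2 :=
      charP_of_injective_algebraMap (algebraMap (ZMod 2) (AlgebraicClosure (ZMod 2))).injective 2
    have h1 := (CharP.cast_eq_zero_iff (AlgebraicClosure (ZMod 2)) 2 q).1 h
    exact hq ((Nat.prime_dvd_prime_iff_eq Nat.prime_two (Fact.out : q.Prime)).1 h1).symm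
  have hqp : 0 < q := (Fact.out : q.Prime).pos
  have : NeZero q := ⟨hqp.ne'⟩
  obtain ⟨ζ, hζ⟩ := HasEnoughRootsOfUnity.exists_primitiveRoot (AlgebraicClosure (ZMod 2)) q
  obtain ⟨u, rfl⟩ := hζ.isUnit hqp.ne'
  have hu : IsPrimitiveRoot u q := IsPrimitiveRoot.coe_units_iff.1 hζ
  have hz : ∀ x : (AlgebraicClosure (ZMod 2))ˣ, x ^ q = 1 → x ∈ Subgroup.zpowers u := fun x hx => by
    rw [hu.zpowers_eq]; exact (mem_rootsOfUnity _ _).2 hx
  let e := hu.zmodEquivZPowers
  refine ⟨fun x => if h : x ∈ Subgroup.zpowers u then e.symm (Additive.ofMul ⟨x, h⟩) else 0, ?_, ?_⟩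
  · intro x y hx hy
    have hx' := hz x hx
    have hy' := hz y hy
    beta_reduce
    rw [dif_pos hx', dif_pos hy', dif_pos (Subgroup.mul_mem _ hx' hy'), ← map_add]
    rfl
  · intro x hx h
    beta_reduce at h
    rw [dif_pos (hz x hx)] at h
    have h1 : (Additive.ofMul (⟨x, hz x hx⟩ : Subgroup.zpowers u)) = 0 := by
      rw [← e.symm.map_eq_zero_iff]; exact h
    exact congrArg (fun t : Additive (Subgroup.zpowers u) =>
      ((Additive.toMul t : Subgroup.zpowers u) : (AlgebraicClosure (ZMod 2))ˣ)) h1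

noncomputable def lg (q : ℕ) [Fact q.Prime] (hq : q ≠ 2) : (AlgebraicClosure (ZMod 2))ˣ → ZMod q :=
  (exists_log q hq).choose

theorem lg_mul {q : ℕ} [Fact q.Prime] (hq : q ≠ 2) {x y : (AlgebraicClosure (ZMod 2))ˣ} (hx : x ^ q = 1)
    (hy : y ^ q = 1) : lg q hq (x * y) = lg q hq x + lg q hq y := (exists_log q hq).choose_spec.1 x y hx hy

theorem eq_one_of_lg {q : ℕ} [Fact q.Prime] (hq : q ≠ 2) {x : (AlgebraicClosure (ZMod 2))ˣ} (hx : x ^ q = 1)
    (h : lg q hq x = 0) : x = 1 := (exists_log q hq).choose_spec.2 x hx h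

theorem lg_one {q : ℕ} [Fact q.Prime] (hq : q ≠ 2) : lg q hq 1 = 0 := by
  have h := lg_mul hq (x := 1) (y := 1) (one_pow q) (one_pow q)
  rw [one_mul] at h
  exact (left_eq_add.1 h)

/-! ### the model -/

section Model

variable {G : Type u} [Group G]

/-- a model of `Q / Z(Q)` -/
structure Model (Q : Subgroup G) (W : Type u) [AddCommGroup W] where
  π : Q → W
  surj : Function.Surjective π
  mul : ∀ a b, π (a * b) = π a + π b
  ker : ∀ a, π a = 0 ↔ (a : G) ∈ D1.ZQ Q

variable {Q : Subgroup G} {W : Type u} [AddCommGroup W]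

namespace Model

theorem one (M : Model Q W) : M.π 1 = 0 := (M.ker 1).2 (Subgroup.one_mem _)

theorem inv (M : Model Q W) (a : Q) : M.π a⁻¹ = - M.π a := by
  rw [eq_neg_iff_add_eq_zero, ← M.mul, inv_mul_cancel, M.one]

theorem pow (M : Model Q W) (a : Q) (n : ℕ) : M.π (a ^ n) = n • M.π a := by
  induction n with
  | zero => rw [pow_zero, M.one, zero_nsmul]
  | succ n ih => rw [pow_succ, M.mul, ih, succ_nsmul]

theorem eq_iff (M : Model Q W) (a b : Q) : M.π a = M.π b ↔ ((a⁻¹ * b : Q) : G) ∈ D1.ZQ Q := by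
  rw [← M.ker, M.mul, M.inv, neg_add_eq_zero]

theorem comm (M : Model Q W) (a b : Q) : ⁅(a : G), (b : G)⁆ ∈ D1.ZQ Q := by
  have h1 : M.π (a * b * a⁻¹ * b⁻¹) = 0 := by
    rw [M.mul, M.mul, M.mul, M.inv, M.inv]; abel
  exact (M.ker _).1 h1

/-- conjugation -/
def act [hn : Q.Normal] (g : G) (a : Q) : Q := ⟨g * a * g⁻¹, hn.conj_mem a a.2 g⟩

theorem act_mul [hn : Q.Normal] (g : G) (a b : Q) : act g (a * b) = act g a * act g b := by
  apply Subtype.ext
  show g * (a * b) * g⁻¹ = (g * a * g⁻¹) * (g * b * g⁻¹)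
  group

/-- a representative -/
noncomputable def rep (M : Model Q W) (w : W) : Q := (M.surj w).choose

theorem π_rep (M : Model Q W) (w : W) : M.π (M.rep w) = w := (M.surj w).choose_spec

variable [hn : Q.Normal]

theorem act_eq (M : Model Q W) (g : G) {a b : Q} (h : M.π a = M.π b) : M.π (act g a) = M.π (act g b) := by
  rw [M.eq_iff] at h ⊢
  have : (D1.ZQ Q).Normal := inferInstance
  have h2 := this.conj_mem _ h g
  refine (congrArg (· ∈ D1.ZQ Q) ?_).mp h2
  show g * ((a : G)⁻¹ * (b : G)) * g⁻¹ = (g * (a : G) * g⁻¹)⁻¹ * (g * (b : G) * g⁻¹)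
  group

/-- the action of `g` -/
noncomputable def sig (M : Model Q W) (g : G) : W →+ W where
  toFun w := M.π (act g (M.rep w))
  map_zero' := by
    rw [M.act_eq g (b := 1) (by rw [M.π_rep, M.one]), ← M.one]
    congr 1
    apply Subtype.ext
    show g * 1 * g⁻¹ = 1
    group
  map_add' := by
    intro x y
    rw [← M.mul, ← act_mul]
    apply M.act_eq
    rw [M.mul, M.π_rep, M.π_rep, M.π_rep]

theorem sig_apply (M : Model Q W) (g : G) (a : Q) : M.sig g (M.π a) = M.π (act g a) :=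
  M.act_eq g (M.π_rep _)

/-- the representation -/
noncomputable def sigma {q : ℕ} [Module (ZMod q) W] (M : Model Q W) : G →* Module.End (ZMod q) W where
  toFun g := (M.sig g).toZModLinearMap q
  map_one' := by
    ext w
    obtain ⟨a, rfl⟩ := M.surj w
    show M.sig 1 (M.π a) = M.π a
    rw [M.sig_apply]
    congr 1
    apply Subtype.ext
    show 1 * (a : G) * 1⁻¹ = a
    group
  map_mul' := by
    intro g h
    ext w
    obtain ⟨a, rfl⟩ := M.surj w
    show M.sig (g * h) (M.π a) = M.sig g (M.sig h (M.π a))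
    rw [M.sig_apply, M.sig_apply, M.sig_apply]
    congr 1
    apply Subtype.ext
    show g * h * (a : G) * (g * h)⁻¹ = g * (h * (a : G) * h⁻¹) * g⁻¹
    group

theorem sigma_apply {q : ℕ} [Module (ZMod q) W] (M : Model Q W) (g : G) (a : Q) :
    M.sigma (q := q) g (M.π a) = M.π (act g a) := M.sig_apply g a

end Model

end Model

/-! ### existence -/

section Existence

variable {G : Type u} [Group G] [Finite G] {k : ℕ} {Q R : Subgroup G}

theorem exists_model (h : D1 k Q R) : ∃ (W : Type u) (_ : AddCommGroup W) (_ : Finite W), Nonempty (Model Q W) := by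
  have hQn := h.normalQ
  let Z' : Subgroup Q := (D1.ZQ Q).subgroupOf Q
  have hZn : Z'.Normal := Subgroup.Normal.subgroupOf h.normalZQ Q
  have hcomm : ∀ a b : Q, ⁅a, b⁆ ∈ Z' := fun a b =>
    h.comm_QQ_le (Subgroup.commutator_mem_commutator a.2 b.2)
  let cg : CommGroup (Q ⧸ Z') := { (inferInstance : Group (Q ⧸ Z')) with
    mul_comm := by
      intro x y
      obtain ⟨a, rfl⟩ := QuotientGroup.mk'_surjective Z' x
      obtain ⟨b, rfl⟩ := QuotientGroup.mk'_surjective Z' y
      rw [← commutatorElement_eq_one_iff_mul_comm, ← map_commutatorElement]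
      exact (QuotientGroup.eq_one_iff _).2 (hcomm a b) }
  refine ⟨Additive (Q ⧸ Z'), inferInstance, inferInstance, ⟨⟨fun a => Additive.ofMul (QuotientGroup.mk' Z' a), ?_, ?_, ?_⟩⟩⟩
  · intro w
    obtain ⟨a, ha⟩ := QuotientGroup.mk'_surjective Z' (Additive.toMul w)
    exact ⟨a, congrArg Additive.ofMul ha⟩
  · intro a b
    rfl
  · intro a
    have h1 : (Additive.ofMul (QuotientGroup.mk' Z' a) = (0 : Additive (Q ⧸ Z'))) ↔ QuotientGroup.mk' Z' a = 1 := Iff.rfl
    rw [h1]
    exact (QuotientGroup.eq_one_iff _).trans Subgroup.mem_subgroupOf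

/-- invariant subgroups of the model -/
theorem Model.irr (h : D1 k Q R) {W : Type u} [AddCommGroup W] (M : Model Q W) (A : AddSubgroup W)
    (hA : ∀ (g : G) (a : Q), M.π a ∈ A → ∀ hg : g * (a : G) * g⁻¹ ∈ Q, M.π ⟨g * (a : G) * g⁻¹, hg⟩ ∈ A) :
    A = ⊥ ∨ A = ⊤ := by
  have hQn := h.normalQ
  let Q₁ : Subgroup G :=
    { carrier := {a | ∃ ha : a ∈ Q, M.π ⟨a, ha⟩ ∈ A}
      one_mem' := ⟨Q.one_mem, by
        have : M.π ⟨1, Q.one_mem⟩ = 0 := M.one
        rw [this]; exact A.zero_mem⟩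
      mul_mem' := by
        rintro a b ⟨ha, ha'⟩ ⟨hb, hb'⟩
        refine ⟨Q.mul_mem ha hb, ?_⟩
        have : M.π ⟨a * b, Q.mul_mem ha hb⟩ = M.π ⟨a, ha⟩ + M.π ⟨b, hb⟩ := M.mul ⟨a, ha⟩ ⟨b, hb⟩
        rw [this]
        exact A.add_mem ha' hb'
      inv_mem' := by
        rintro a ⟨ha, ha'⟩
        refine ⟨Q.inv_mem ha, ?_⟩
        have : M.π ⟨a⁻¹, Q.inv_mem ha⟩ = - M.π ⟨a, ha⟩ := M.inv ⟨a, ha⟩
        rw [this]
        exact A.neg_mem ha' }
  have hn : Q₁.Normal := by
    refine ⟨?_⟩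
    rintro a ⟨ha, ha'⟩ g
    exact ⟨hQn.conj_mem a ha g, hA g ⟨a, ha⟩ ha' _⟩
  rcases h.irr_Q hn (fun a ha => ha.1) with h1 | h1
  · right
    rw [eq_top_iff]
    intro w _
    obtain ⟨a, rfl⟩ := M.surj w
    have h2 : (a : G) ∈ Q₁ := by rw [h1]; exact a.2
    exact h2.2
  · left
    rw [eq_bot_iff]
    intro w hw
    obtain ⟨a, rfl⟩ := M.surj w
    exact (M.ker a).2 (h1 ⟨a.2, hw⟩)

/-- exponent `q` -/
theorem Model.expq (h : D1 k Q R) (hab : ¬ Q ≤ Subgroup.centralizer (Q : Set G)) {q : ℕ} (hqQ : IsPGroup q Q)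
    {W : Type u} [AddCommGroup W] [Finite W] (M : Model Q W) (w : W) : q • w = 0 := by
  have hQn := h.normalQ
  rcases M.irr h (nsmulAddMonoidHom (α := W) q).range (by
    intro g a ha hg
    obtain ⟨w, hw⟩ := ha
    refine ⟨M.sig g w, ?_⟩
    show q • M.sig g w = M.π ⟨g * (a : G) * g⁻¹, hg⟩
    have h1 : q • w = M.π a := hw
    rw [← map_nsmul, h1, M.sig_apply]
    rfl) with h1 | h1
  · have h2 : q • w ∈ (nsmulAddMonoidHom (α := W) q).range := ⟨w, rfl⟩
    rw [h1] at h2
    exact h2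
  · exfalso
    have hs : Function.Surjective (fun w : W => q • w) := by
      intro w
      have : w ∈ (nsmulAddMonoidHom (α := W) q).range := by rw [h1]; trivial
      exact this
    have hi : Function.Injective (fun w : W => q • w) := Finite.injective_iff_surjective.2 hs
    have h0 : ∀ w : W, w = 0 := by
      intro w
      obtain ⟨a, rfl⟩ := M.surj w
      obtain ⟨n, hn⟩ := hqQ a
      have h2 : (q ^ n) • M.π a = 0 := by rw [← M.pow, hn, M.one]
      clear hn
      induction n with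
      | zero => simpa using h2
      | succ n ih =>
        apply ih
        apply hi
        show q • (q ^ n • M.π a) = q • (0 : W)
        rw [smul_zero, smul_smul, ← pow_succ', h2]
    apply hab
    intro a ha
    exact ((M.ker ⟨a, ha⟩).1 (h0 _)).2

end Existence

end Cfsg.Agent.H557.PartW
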