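import Cfsg.Agent.H557.PartW1

/-!
# Part W of S4258: the linearization of `Q / Z(Q)` (second part, the forms)
-/

set_option autoImplicit false
set_option linter.unusedSectionVars false
set_option linter.unusedVariables false

universe u

namespace Cfsg.Agent.H557.PartW

open Module Cfsg.Agent.H552 Cfsg.Agent.H557.PartC
open scoped commutatorElement TensorProduct

section Form

variable {G : Type u} [Group G] {Q : Subgroup G} {W : Type u} [AddCommGroup W] (M : Model Q W)
  {q : ℕ} [Fact q.Prime] (hq : q ≠ 2) (hexp : ∀ w : W, q • w = 0)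
  (μ : D1.ZQ Q →* (AlgebraicClosure (ZMod 2))ˣ)

/-- the commutator in `Z(Q)` -/
def cm (a b : Q) : D1.ZQ Q := ⟨⁅(a : G), (b : G)⁆, M.comm a b⟩

theorem ZQ_comm (c : D1.ZQ Q) (a : Q) : (c : G) * a = a * c := (c.2.2 a a.2).symm

theorem cm_mul_left (a b c : Q) : cm M (a * b) c = cm M a c * cm M b c := by
  apply Subtype.ext
  show ⁅(a : G) * b, (c : G)⁆ = ⁅(a : G), (c : G)⁆ * ⁅(b : G), (c : G)⁆
  have h1 : (⁅(b : G), (c : G)⁆ : G) * (a : G)⁻¹ = (a : G)⁻¹ * ⁅(b : G), (c : G)⁆ :=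
    ZQ_comm ⟨_, M.comm b c⟩ a⁻¹
  have h2 : (⁅(b : G), (c : G)⁆ : G) * (c : G) = (c : G) * ⁅(b : G), (c : G)⁆ :=
    ZQ_comm ⟨_, M.comm b c⟩ c
  have h3 : ⁅(a : G) * b, (c : G)⁆ = (a : G) * ((⁅(b : G), (c : G)⁆ : G) * (c : G)) * (a : G)⁻¹ * (c : G)⁻¹ := by
    rw [commutatorElement_def, commutatorElement_def]; group
  rw [h3, h2]
  have h4 : (a : G) * ((c : G) * ⁅(b : G), (c : G)⁆) * (a : G)⁻¹ * (c : G)⁻¹ =
      (a : G) * (c : G) * (⁅(b : G), (c : G)⁆ * (a : G)⁻¹) * (c : G)⁻¹ := by group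
  have h5 : (c : G)⁻¹ * ⁅(b : G), (c : G)⁆ = ⁅(b : G), (c : G)⁆ * (c : G)⁻¹ :=
    (ZQ_comm ⟨_, M.comm b c⟩ c⁻¹).symm
  rw [h4, h1]
  calc (a : G) * (c : G) * ((a : G)⁻¹ * ⁅(b : G), (c : G)⁆) * (c : G)⁻¹
      = (a : G) * (c : G) * (a : G)⁻¹ * (⁅(b : G), (c : G)⁆ * (c : G)⁻¹) := by group
    _ = (a : G) * (c : G) * (a : G)⁻¹ * ((c : G)⁻¹ * ⁅(b : G), (c : G)⁆) := by rw [h5]
    _ = _ := by rw [commutatorElement_def (a : G)]; group

theorem cm_inv (a b : Q) : cm M b a = (cm M a b)⁻¹ := by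
  apply Subtype.ext
  show ⁅(b : G), (a : G)⁆ = (⁅(a : G), (b : G)⁆)⁻¹
  rw [commutatorElement_inv]

theorem ZQ_comm' (c d : D1.ZQ Q) : c * d = d * c := Subtype.ext (ZQ_comm c ⟨d, d.2.1⟩)

theorem cm_mul_right (a b c : Q) : cm M a (b * c) = cm M a b * cm M a c := by
  rw [cm_inv M (b * c) a, cm_mul_left, cm_inv M b a, cm_inv M c a, mul_inv_rev, ZQ_comm']

theorem cm_self (a : Q) : cm M a a = 1 := Subtype.ext (commutatorElement_self _)

theorem cm_eq_one_of_ZQ {a : Q} (ha : (a : G) ∈ D1.ZQ Q) (b : Q) : cm M a b = 1 := by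
  apply Subtype.ext
  exact commutatorElement_eq_one_iff_mul_comm.2 (ZQ_comm ⟨_, ha⟩ b)

theorem cm_pow (a b : Q) (n : ℕ) : cm M (a ^ n) b = cm M a b ^ n := by
  induction n with
  | zero => rw [pow_zero, pow_zero]; exact cm_eq_one_of_ZQ M (Subgroup.one_mem _) b
  | succ n ih => rw [pow_succ, pow_succ, cm_mul_left, ih]

include hexp in
theorem cm_pow_q (a b : Q) : cm M a b ^ q = 1 := by
  rw [← cm_pow]
  apply cm_eq_one_of_ZQ
  rw [← M.ker, M.pow, hexp]

include hexp in
theorem mu_pow (a b : Q) : (μ (cm M a b)) ^ q = 1 := by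
  rw [← map_pow, cm_pow_q M hexp, map_one]

/-- the form on `Q` -/
noncomputable def F (a b : Q) : ZMod q := lg q hq (μ (cm M a b))

include hexp in
theorem F_mul_left (a b c : Q) : F M hq μ (a * b) c = F M hq μ a c + F M hq μ b c := by
  unfold F
  rw [cm_mul_left, map_mul, lg_mul hq (mu_pow M hexp μ a c) (mu_pow M hexp μ b c)]

include hexp in
theorem F_mul_right (a b c : Q) : F M hq μ a (b * c) = F M hq μ a b + F M hq μ a c := by
  unfold F
  rw [cm_mul_right, map_mul, lg_mul hq (mu_pow M hexp μ a b) (mu_pow M hexp μ a c)]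

theorem F_self (a : Q) : F M hq μ a a = 0 := by
  unfold F
  rw [cm_self, map_one, lg_one]

include hexp in
theorem F_eq_zero (a b : Q) (h : F M hq μ a b = 0) : μ (cm M a b) = 1 := eq_one_of_lg hq (mu_pow M hexp μ a b) h

include hexp in
theorem F_congr {a a' b b' : Q} (h : M.π a = M.π a') (h' : M.π b = M.π b') : F M hq μ a b = F M hq μ a' b' := by
  have h1 : ∀ a a' b : Q, M.π a = M.π a' → F M hq μ a b = F M hq μ a' b := by
    intro a a' b h
    have h2 := (M.eq_iff a a').1 h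
    have h3 : a' = a * (a⁻¹ * a') := by group
    rw [h3, F_mul_left M hq hexp]
    have h4 : F M hq μ (a⁻¹ * a') b = 0 := by
      unfold F
      rw [cm_eq_one_of_ZQ M h2, map_one, lg_one]
    rw [h4, add_zero]
  have h5 : ∀ a b b' : Q, M.π b = M.π b' → F M hq μ a b = F M hq μ a b' := by
    intro a b b' h
    have h2 := (M.eq_iff b b').1 h
    have h3 : b' = b * (b⁻¹ * b') := by group
    rw [h3, F_mul_right M hq hexp]
    have h4 : F M hq μ a (b⁻¹ * b') = 0 := by
      unfold F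
      rw [cm_inv, cm_eq_one_of_ZQ M h2, inv_one, map_one, lg_one]
    rw [h4, add_zero]
  rw [h1 a a' b h, h5 a' b b' h']

/-- the form on `W` -/
noncomputable def bf [Module (ZMod q) W] : W →ₗ[ZMod q] W →ₗ[ZMod q] ZMod q :=
  AddMonoidHom.toZModLinearMap q
    { toFun := fun x => AddMonoidHom.toZModLinearMap q
        { toFun := fun y => F M hq μ (M.rep x) (M.rep y)
          map_zero' := by
            rw [F_congr M hq hexp μ (a' := M.rep x) (b' := 1) rfl (by rw [M.π_rep, M.one])]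
            unfold F
            rw [cm_inv, cm_eq_one_of_ZQ M (Subgroup.one_mem _), inv_one, map_one, lg_one]
          map_add' := by
            intro y z
            rw [← F_mul_right M hq hexp]
            exact F_congr M hq hexp μ rfl (by rw [M.mul, M.π_rep, M.π_rep, M.π_rep]) }
      map_zero' := by
        ext y
        show F M hq μ (M.rep 0) (M.rep y) = 0
        rw [F_congr M hq hexp μ (a' := 1) (b' := M.rep y) (by rw [M.π_rep, M.one]) rfl]
        unfold F
        rw [cm_eq_one_of_ZQ M (Subgroup.one_mem _), map_one, lg_one]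
      map_add' := by
        intro x z
        ext y
        show F M hq μ (M.rep (x + z)) (M.rep y) = F M hq μ (M.rep x) (M.rep y) + F M hq μ (M.rep z) (M.rep y)
        rw [← F_mul_left M hq hexp]
        exact F_congr M hq hexp μ (by rw [M.mul, M.π_rep, M.π_rep, M.π_rep]) rfl }

theorem bf_apply [Module (ZMod q) W] (a b : Q) : bf M hq hexp μ (M.π a) (M.π b) = F M hq μ a b := by
  show F M hq μ (M.rep (M.π a)) (M.rep (M.π b)) = F M hq μ a b
  exact F_congr M hq hexp μ (M.π_rep _) (M.π_rep _)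

end Form

end Cfsg.Agent.H557.PartW
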